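import Cfsg.Agent.TwistSub.E6Top
import Cfsg.Agent.ChevSubfield.LargeRoot

/-!
An overgroup of the points of `²E₆(q)` over the field with `q` elements without further elements at
the highest short root sends long root elements to points.
-/

set_option autoImplicit false
set_option linter.unusedSectionVars false

namespace CfsgLib.TwistSub.E6

open Cfsg.Lie CfsgLib.Chevalley CfsgLib.TwistedLie CfsgLib.TwistedLie.E6 CfsgLib.ChevField
  CfsgLib.ChevSubfield
open scoped Matrix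

local notation "S" => sysE6

/-- The roots with a positive coefficient at the node joined to the highest root. -/
def qSet : Set ℕ := {r | 0 < sysE6.vec 1 r}

/-- The other roots. -/
def lSet : Set ℕ := {r | sysE6.vec 1 r ≤ 0}

theorem closed_qSet : Sys.Closed sysE6 qSet :=
  fun r hr s hs _ _ k _ i j hi hj hv => by
    show 0 < sysE6.vec 1 k
    have h1 : 0 < sysE6.vec 1 r := hr
    have h2 : 0 < sysE6.vec 1 s := hs
    rw [hv 1 (by decide)]
    positivity

theorem closed_lSet : Sys.Closed sysE6 lSet :=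
  fun r hr s hs _ _ k _ i j hi hj hv => by
    show sysE6.vec 1 k ≤ 0
    have h1 : sysE6.vec 1 r ≤ 0 := hr
    have h2 : sysE6.vec 1 s ≤ 0 := hs
    rw [hv 1 (by decide)]
    have a1 : (i : ℤ) * sysE6.vec 1 r ≤ 0 := mul_nonpos_of_nonneg_of_nonpos (by positivity) h1
    have a2 : (j : ℤ) * sysE6.vec 1 s ≤ 0 := mul_nonpos_of_nonneg_of_nonpos (by positivity) h2
    omega

theorem vec_rho : ∀ r < 72, sysE6.vec 1 (pE r) = sysE6.vec 1 r := by decide +kernel

theorem low_commute : ∀ r < 72, 36 ≤ r → sysE6.vec 1 r ≤ 0 →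
    chevE6.commTerms r 0 = [] ∧ (0 : ℕ) ≠ r ∧ (0 : ℕ) ≠ chevE6.neg r := by decide +kernel

set_option synthInstance.maxSize 2000 in
set_option synthInstance.maxHeartbeats 100000 in
theorem heis : ∀ r < 72, ∀ s < 72, 36 ≤ r → 36 ≤ s → s ≠ r → 0 < sysE6.vec 1 r →
    0 < sysE6.vec 1 s → ∀ c ∈ chevE6.commTerms r s, c.1 = 71 := by decide +kernel

theorem z_facts : chevE6.commTerms 68 0 = [(23, 1, 1, 1)] ∧
    chevE6.commTerms 66 0 = [(21, 1, 1, 1)] ∧ chevE6.commTerms 66 23 = [(60, -1, 1, 1)] ∧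
    chevE6.commTerms 66 21 = [] ∧ pE 60 = 60 ∧
    wL chevE6 (wdN longWord) 0 = 71 ∧ wL chevE6 (wdN longWord) 21 = 48 ∧
    wL chevE6 (wdN longWord) 23 = 50 ∧ Sys.height sysE6 48 ≤ Sys.height sysE6 71 ∧
    Sys.height sysE6 48 ≤ Sys.height sysE6 50 := by decide +kernel

/-- The word of the reflection in the highest root. -/
def topRefl : List (Fin 4) := [0, 1, 2, 1, 3, 2, 1, 0, 1, 2, 3, 1, 2, 1, 0]

theorem topRefl_eq : topRefl = [0, 1, 2, 1, 3, 2, 1] ++ [0] ++ ([0, 1, 2, 1, 3, 2, 1] : List (Fin 4)).reverse :=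
  rfl

theorem topRefl_facts : wL chevE6 (wdN [0, 1, 2, 1, 3, 2, 1]) 46 = 71 ∧
    wL chevE6 (wdN [0, 1, 2, 1, 3, 2, 1]) 25 = 0 := by decide +kernel

/-- The roots moved into the unipotent radical at the highest root by a word. -/
def intoQ (L : List (Fin 4)) (r : ℕ) : Prop :=
  36 ≤ wL chevE6 (wdN L) r ∧ 0 < sysE6.vec 1 (wL chevE6 (wdN L) r)

theorem chain_facts : (36 ≤ 46 ∧ 0 < sysE6.vec 1 46) ∧ intoQ topRefl 25 ∧ intoQ [0] 39 ∧
    intoQ (topRefl ++ [0]) 32 ∧ intoQ [0, 1] 42 ∧ intoQ [0, 1] 37 ∧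
    intoQ (topRefl ++ [0, 1]) 29 ∧ intoQ (topRefl ++ [0, 1]) 34 ∧
    intoQ [0, 1, 2] 56 ∧ intoQ [0, 1, 2] 36 ∧
    intoQ (topRefl ++ [0, 1, 2]) 15 ∧ intoQ (topRefl ++ [0, 1, 2]) 35 := by
  unfold intoQ
  decide +kernel

variable {K : Type*} [Field K] [Fintype K] {q : ℕ}

local notation "G1" => chevE6.genSubgroup K (e6Words K q)

/-- Commutators inside the radical lie in the highest root subgroup. -/
theorem q_comm {v x : GL chevE6.Idx K} (hv : v ∈ uSub chevE6 K qSet)
    (hx : x ∈ uSub chevE6 K qSet) : v * x * v⁻¹ * x⁻¹ ∈ uSub chevE6 K {71} := by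
  have hcen : ∀ z ∈ uSub chevE6 K {71}, ∀ u ∈ chevE6.posUnipotent K, u * z * u⁻¹ = z := by
    intro z hz u hu
    induction hz using Subgroup.closure_induction with
    | mem y hy =>
      obtain ⟨s, t, ⟨hs, -⟩, hy⟩ := hy
      obtain rfl : s = 71 := hs
      rw [Sys.eq_xG S K hy]
      exact mul_inv_eq_iff_eq_mul.mpr (Sys.top_commute_pos S K highE6 hu t).eq.symm
    | one => simp
    | mul y z _ _ h1 h2 =>
      calc u * (y * z) * u⁻¹ = (u * y * u⁻¹) * (u * z * u⁻¹) := by group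
        _ = y * z := by rw [h1, h2]
    | inv y _ h1 =>
      calc u * y⁻¹ * u⁻¹ = (u * y * u⁻¹)⁻¹ := by group
        _ = y⁻¹ := by rw [h1]
  induction hv using Subgroup.closure_induction generalizing x with
  | mem y hy =>
    obtain ⟨r, t, ⟨hr, hrp⟩, hy⟩ := hy
    obtain ⟨h1, h2⟩ := (sysE6.pos_iff r).mp hrp
    have hxU : x ∈ chevE6.posUnipotent K := uSub_le_posUnipotent K _ hx
    rw [Sys.eq_xG S K hy]
    have h3 := Sys.conj_defect S K (R := qSet) (T := {71}) h2 h1 (-t)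
      (fun v hv g hg => by rw [hcen g hg v hv]; exact hg)
      (fun s hs hs1 hs2 hne c hc => heis r h2 s hs2 h1 hs1 hne hr hs c hc) hx
    rw [Sys.xG_inv, neg_neg] at h3
    have h4 : Sys.xG S K r t * x * (Sys.xG S K r t)⁻¹ * x⁻¹ =
        x * (x⁻¹ * (Sys.xG S K r t * x * Sys.xG S K r (-t))) * x⁻¹ := by
      rw [← Sys.xG_inv]
      group
    rw [h4, hcen _ h3 x hxU]
    exact h3
  | one => simp
  | mul y z hy hz h1 h2 =>
    have hyU : y ∈ chevE6.posUnipotent K := uSub_le_posUnipotent K _ hy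
    have h3 := mul_mem (h2 hx) (h1 hx)
    convert h3 using 1
    calc y * z * x * (y * z)⁻¹ * x⁻¹ =
          y * (z * x * z⁻¹ * x⁻¹) * y⁻¹ * (y * x * y⁻¹ * x⁻¹) := by group
      _ = _ := by rw [hcen _ (h2 hx) y hyU]
  | inv y hy h1 =>
    have hyU : y⁻¹ ∈ chevE6.posUnipotent K := inv_mem (uSub_le_posUnipotent K _ hy)
    have h3 := inv_mem (h1 hx)
    convert h3 using 1
    calc y⁻¹ * x * y⁻¹⁻¹ * x⁻¹ = y⁻¹ * (y * x * y⁻¹ * x⁻¹)⁻¹ * y⁻¹⁻¹ := by group
      _ = _ := hcen _ h3 _ hyU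

variable (hq : IsPrimePow q) (hK : Fintype.card K = q ^ 2)
include hq hK

/-- A fixed unipotent element moves the lowest root element as one from the radical does. -/
theorem exists_radical {v : GL chevE6.Idx K} (hv : v ∈ chevE6.posUnipotent K) (hvG : v ∈ G1) :
    ∃ w ∈ uSub chevE6 K qSet, w ∈ G1 ∧
      v * Sys.xG S K 0 1 * v⁻¹ = w * Sys.xG S K 0 1 * w⁻¹ := by
  have hu : (qSet ∪ lSet : Set ℕ) = Set.univ := by
    ext r
    simp only [qSet, lSet, Set.mem_union, Set.mem_univ, iff_true]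
    exact lt_or_ge 0 (sysE6.vec 1 r)
  rw [← uSub_univ, ← hu] at hv
  obtain ⟨w, hw, l, hl, rfl⟩ := Sys.uSub_union_mul S K closed_qSet closed_lSet
    (hu.symm ▸ Sys.closed_univ S) hv
  set E := tw hq hK
  have hρ : ∀ s : Fin chevE6.nroots, (E.ρ s : ℕ) = pE (s : ℕ) := fun _ => rfl
  have hσw : E.σ w ∈ uSub chevE6 K qSet := E.σ_uSub (fun s hs _ => by
    show 0 < sysE6.vec 1 (E.ρ s : ℕ)
    rw [hρ, vec_rho _ s.isLt]; exact hs) hw
  have hσl : E.σ l ∈ uSub chevE6 K lSet := E.σ_uSub (fun s hs _ => by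
    show sysE6.vec 1 (E.ρ s : ℕ) ≤ 0
    rw [hρ, vec_rho _ s.isLt]; exact hs) hl
  have h1 : E.σ w * E.σ l = w * l := by
    show sigma hq hK w * sigma hq hK l = _
    rw [← map_mul]; exact E.σ_mem hvG
  have hkey : w⁻¹ * E.σ w = l * (E.σ l)⁻¹ := by
    rw [inv_mul_eq_iff_eq_mul, ← mul_assoc, ← h1, mul_inv_cancel_right]
  have hb : w⁻¹ * E.σ w ∈ uSub chevE6 K qSet ⊓ uSub chevE6 K lSet :=
    Subgroup.mem_inf.mpr ⟨mul_mem (inv_mem hw) hσw, hkey ▸ mul_mem hl (inv_mem hσl)⟩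
  rw [Sys.uSub_inf S K closed_qSet closed_lSet, uSub_empty_of (P := qSet ∩ lSet)
    (fun r hr _ => absurd (show 0 < sysE6.vec 1 r from hr.1)
      (not_lt.mpr (show sysE6.vec 1 r ≤ 0 from hr.2))), Subgroup.mem_bot,
    inv_mul_eq_one] at hb
  refine ⟨w, hw, mem_G1_of_fixed hq hK (uSub_le_posUnipotent K _ hw) hb.symm, ?_⟩
  have hc : ∀ g ∈ uSub chevE6 K lSet, g * Sys.xG S K 0 1 * g⁻¹ = Sys.xG S K 0 1 := by
    intro g hg
    have hg' : g ∈ Subgroup.centralizer {Sys.xG S K 0 1} := by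
      refine Sys.uSub_le S K (H := Subgroup.centralizer {Sys.xG S K 0 1}) (fun r hr h1 h2 t => ?_) hg
      obtain ⟨a, b, c⟩ := low_commute r h2 h1 hr
      rw [Subgroup.mem_centralizer_singleton_iff]
      exact (Sys.xG_commute S K h2 (show 0 < 72 by decide) b c a t 1).eq
    exact mul_inv_eq_iff_eq_mul.mpr (Subgroup.mem_centralizer_singleton_iff.mp hg')
  calc w * l * Sys.xG S K 0 1 * (w * l)⁻¹ = w * (l * Sys.xG S K 0 1 * l⁻¹) * w⁻¹ := by group
    _ = _ := by rw [hc l hl]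

/-- The element `x_66 x_0 x_66⁻¹` of the group. -/
theorem low_conj (t : K) : orb hq hK 66 t * Sys.xG S K 0 1 * (orb hq hK 66 t)⁻¹ =
    Sys.xG S K 0 1 * Sys.xG S K 21 t * Sys.xG S K 23 (phi hq hK t) *
      Sys.xG S K 60 (-(t * phi hq hK t)) := by
  obtain ⟨c1, c2, c3, c4, -⟩ := z_facts
  set w := phi hq hK t
  have ho : orb hq hK 66 t = Sys.xG S K 66 t * Sys.xG S K 68 w := by
    rw [orb, short_top.2.2.1, if_neg (by decide), short_top.2.2.2, Int.cast_one, one_mul]
  have h1 := Sys.comm_single S K (show 68 < 72 by decide) (show 0 < 72 by decide) (by decide)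
    (by decide +kernel) c1 (-w) (1 : K)
  rw [Sys.xG_inv, neg_neg] at h1
  have h2 := Sys.comm_single S K (show 66 < 72 by decide) (show 0 < 72 by decide) (by decide)
    (by decide +kernel) c2 (-t) (1 : K)
  rw [Sys.xG_inv, neg_neg] at h2
  have h3 := Sys.comm_single S K (show 66 < 72 by decide) (show 23 < 72 by decide) (by decide)
    (by decide +kernel) c3 (-t) w
  rw [Sys.xG_inv, neg_neg] at h3
  simp only [Int.cast_one, neg_mul, one_mul, mul_one, neg_neg, Int.cast_neg] at h1 h2 h3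
  rw [ho, mul_inv_rev, Sys.xG_inv, Sys.xG_inv,
    show Sys.xG S K 66 t * Sys.xG S K 68 w * Sys.xG S K 0 1 *
        (Sys.xG S K 68 (-w) * Sys.xG S K 66 (-t)) =
      Sys.xG S K 66 t * (Sys.xG S K 68 w * Sys.xG S K 0 1 * Sys.xG S K 68 (-w)) *
        Sys.xG S K 66 (-t) by group, h1,
    show Sys.xG S K 66 t * (Sys.xG S K 0 1 * Sys.xG S K 23 w) * Sys.xG S K 66 (-t) =
      (Sys.xG S K 66 t * Sys.xG S K 0 1 * (Sys.xG S K 66 t)⁻¹) *
        (Sys.xG S K 66 t * Sys.xG S K 23 w * Sys.xG S K 66 (-t)) by group,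
    Sys.xG_inv, h2, h3]
  simp only [mul_assoc]

theorem nW_blk (i : Fin 4) :
    ((tw hq hK).nW [i] : GL chevE6.Idx K) = nL S K (blkN i) := by
  rw [(tw hq hK).nW_single]
  exact n_eq hq hK i

/-- A conjugate of the lowest root element in an overgroup is a point. -/
theorem low_case {H : Subgroup (GL chevE6.Idx K)} (hM : pts hq hK ≤ H) (hHG : H ≤ G1)
    (hsmall : ∀ t, orb hq hK 66 t ∈ H → phi hq hK t = t) {v : GL chevE6.Idx K}
    (hvQ : v ∈ uSub chevE6 K qSet) (hvG : v ∈ G1)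
    (hy : v * Sys.xG S K 0 1 * v⁻¹ ∈ H) : v * Sys.xG S K 0 1 * v⁻¹ ∈ pts hq hK := by
  have hvU : v ∈ chevE6.posUnipotent K := uSub_le_posUnipotent K _ hvQ
  set H' := H.comap (MulAut.conj v).toMonoidHom with hH'
  have hmem : ∀ x, x ∈ H' ↔ v * x * v⁻¹ ∈ H := fun x => Iff.rfl
  have hq_mem : ∀ m ∈ pts hq hK, m ∈ uSub chevE6 K qSet → m ∈ H' := by
    intro m hm hmQ
    have hz := q_comm hvQ hmQ
    have hzG : v * m * v⁻¹ * m⁻¹ ∈ G1 :=
      mul_mem (mul_mem (mul_mem hvG (pts_le hq hK hm)) (inv_mem hvG)) (inv_mem (pts_le hq hK hm))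
    have hle : uSub chevE6 K {71} ≤ (Sys.xHom S K 71).range := Sys.uSub_le S K fun r hr _ _ t => by
      obtain rfl : r = 71 := hr
      exact ⟨Multiplicative.ofAdd t, rfl⟩
    obtain ⟨f, hf⟩ := hle hz
    have hfx : Sys.xG S K 71 (Multiplicative.toAdd f) = v * m * v⁻¹ * m⁻¹ := hf
    rw [hmem, show v * m * v⁻¹ = v * m * v⁻¹ * m⁻¹ * m by group, ← hfx]
    refine mul_mem (hM (root_pts hq hK (by decide) top_rho ?_)) (hM hm)
    exact fixed_param hq hK (by decide) top_rho (hfx ▸ hzG)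
  have pull : ∀ (L : List (Fin 4)) (n : ↥(chevE6.monomialSubgroup K)),
      Sys.perm S K n = (tw hq hK).wW L → (n : GL chevE6.Idx K) ∈ H' →
      (n : GL chevE6.Idx K) ∈ pts hq hK → ∀ w : List (ℕ × K), Sys.wG S K w ∈ pts hq hK →
      (∀ e ∈ w, e.1 < 72 ∧ intoQ L e.1) → Sys.wG S K w ∈ H' := by
    intro L n hperm hn hnP w hwP hw
    have h1 : (n : GL chevE6.Idx K) * Sys.wG S K w * (n : GL chevE6.Idx K)⁻¹ ∈
        uSub chevE6 K qSet := by
      clear hwP
      induction w with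
      | nil => simp [Sys.wG]
      | cons e w ih =>
        obtain ⟨r, t⟩ := e
        obtain ⟨hr, hr1, hr2⟩ := hw _ List.mem_cons_self
        obtain ⟨c, -, hct⟩ := Sys.conj_root S K n ⟨r, hr⟩
        have hpos : (Sys.perm S K n ⟨r, hr⟩ : ℕ) = wL chevE6 (wdN L) r := by
          rw [hperm]
          exact wperm_flat L ⟨r, hr⟩
        rw [show Sys.wG S K ((r, t) :: w) = Sys.xG S K r t * Sys.wG S K w by simp [Sys.wG],
          show (n : GL chevE6.Idx K) * (Sys.xG S K r t * Sys.wG S K w) * (n : GL chevE6.Idx K)⁻¹ =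
            (n : GL chevE6.Idx K) * Sys.xG S K r t * (n : GL chevE6.Idx K)⁻¹ *
              ((n : GL chevE6.Idx K) * Sys.wG S K w * (n : GL chevE6.Idx K)⁻¹) by group]
        refine mul_mem ?_ (ih fun e he => hw e (List.mem_cons_of_mem _ he))
        rw [show Sys.xG S K r t = Sys.xG S K ((⟨r, hr⟩ : Fin chevE6.nroots) : ℕ) t from rfl,
          (hct t).1, hpos]
        exact Sys.xG_mem_uSub S K (P := qSet) hr2 hr1 (wL_lt72 L hr) _
    have h2 := mul_mem (mul_mem (inv_mem hn) (hq_mem _ (mul_mem (mul_mem hnP hwP) (inv_mem hnP)) h1))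
      hn
    simpa [mul_assoc] using h2
  obtain ⟨k46, k25, k39, k32, k42, k37, k29, k34, k56, k36, k15, k35⟩ := chain_facts
  obtain ⟨t46, t25⟩ := topRefl_facts
  obtain ⟨s0, s1, s2, s3, s4, s5⟩ := simple_eq
  obtain ⟨m0, m1, m2, m3, m4, m5⟩ := neg_eq
  have hone : phi hq hK (1 : K) = 1 := map_one _
  have hneg : phi hq hK (-1 : K) = -1 := by rw [map_neg, map_one]
  -- the reflection in the highest root
  set A := (tw hq hK).nW [0, 1, 2, 1, 3, 2, 1] with hA
  set N0 := A * (tw hq hK).nW [0] * A⁻¹ with hN0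
  have hN0p : Sys.perm S K N0 = (tw hq hK).wW topRefl := by
    rw [hN0, map_mul, map_mul, map_inv, hA, (tw hq hK).perm_nW, (tw hq hK).perm_nW,
      ← (tw hq hK).wW_reverse, topRefl_eq, (tw hq hK).wW_append, (tw hq hK).wW_append]
  have hN0P : (N0 : GL chevE6.Idx K) ∈ pts hq hK :=
    mul_mem (mul_mem (nW_pts hq hK _) (nW_pts hq hK _)) (inv_mem (nW_pts hq hK _))
  have hn46 : ((tw hq hK).nW [0] : GL chevE6.Idx K) =
      Sys.xG S K 46 1 * Sys.xG S K 25 (-1) * Sys.xG S K 46 1 := by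
    rw [nW_blk hq hK, show blkN 0 = [1] from rfl]
    simp only [nL, List.map_cons, List.map_nil, List.prod_singleton]
    rw [Sys.nG_eq, s1, m1, inv_one]
  have hx71 : ∀ f, phi hq hK f = f → Sys.xG S K 71 f ∈ H' := fun f hf => by
    have hc : Commute (Sys.xG S K 71 f) v := Sys.top_commute_pos S K highE6 hvU f
    rw [hmem, ← hc.eq, mul_inv_cancel_right]
    exact hM (root_pts hq hK (by decide) top_rho hf)
  have hx0 : ∀ f : K, (f = 1 ∨ f = -1) → Sys.xG S K 0 f ∈ H' := by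
    intro f hf
    have h1 : Sys.xG S K 0 1 ∈ H' := (hmem _).mpr hy
    rcases hf with rfl | rfl
    · exact h1
    · rw [← Sys.xG_inv]; exact inv_mem h1
  have hN0H : (N0 : GL chevE6.Idx K) ∈ H' := by
    obtain ⟨c, hc, hct⟩ := nW_conj hq hK [0, 1, 2, 1, 3, 2, 1] (show 46 < 72 by decide)
    obtain ⟨d, hd, hdt⟩ := nW_conj hq hK [0, 1, 2, 1, 3, 2, 1] (show 25 < 72 by decide)
    rw [t46] at hct
    rw [t25] at hdt
    have e : (N0 : GL chevE6.Idx K) = Sys.xG S K 71 (c * 1) * Sys.xG S K 0 (d * (-1)) *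
        Sys.xG S K 71 (c * 1) := by
      rw [hN0, Subgroup.coe_mul, Subgroup.coe_mul, Subgroup.coe_inv, hn46, ← hct, ← hdt]
      simp only [hA]
      group
    rw [e]
    refine mul_mem (mul_mem (hx71 _ ?_) (hx0 _ ?_)) (hx71 _ ?_)
    · rw [mul_one, phi_pm hq hK hc]
    · rcases hd with rfl | rfl <;> simp
    · rw [mul_one, phi_pm hq hK hc]
  have h46 : ((tw hq hK).nW [0] : GL chevE6.Idx K) ∈ H' := by
    have a : Sys.xG S K 46 (1 : K) ∈ H' := hq_mem _ (root_pts hq hK (by decide) (by decide +kernel) hone)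
      (Sys.xG_mem_uSub S K k46.2 k46.1 (show 46 < 72 by decide) 1)
    have b : Sys.xG S K 25 (-1 : K) ∈ H' := by
      have := pull topRefl N0 hN0p hN0H hN0P [(25, -1)]
        (by rw [TwistedLie.wG_single]; exact root_pts hq hK (by decide) (by decide +kernel) hneg)
        (by simp [k25])
      rwa [TwistedLie.wG_single] at this
    rw [hn46]
    exact mul_mem (mul_mem a b) a
  have hmulp : ∀ L L' : List (Fin 4), ∀ n : ↥(chevE6.monomialSubgroup K),
      Sys.perm S K n = (tw hq hK).wW L →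
      Sys.perm S K (n * (tw hq hK).nW L') = (tw hq hK).wW (L ++ L') := fun L L' n h => by
    rw [map_mul, h, (tw hq hK).perm_nW, (tw hq hK).wW_append]
  have h39 : ((tw hq hK).nW [1] : GL chevE6.Idx K) ∈ H' := by
    have a : Sys.xG S K 39 (1 : K) ∈ H' := by
      have := pull [0] ((tw hq hK).nW [0]) ((tw hq hK).perm_nW _) h46 (nW_pts hq hK _) [(39, 1)]
        (by rw [TwistedLie.wG_single]; exact root_pts hq hK (by decide) (by decide +kernel) hone)
        (by simp [k39])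
      rwa [TwistedLie.wG_single] at this
    have b : Sys.xG S K 32 (-1 : K) ∈ H' := by
      have := pull (topRefl ++ [0]) (N0 * (tw hq hK).nW [0]) (hmulp _ _ _ hN0p)
        (mul_mem hN0H h46) (mul_mem hN0P (nW_pts hq hK _)) [(32, -1)]
        (by rw [TwistedLie.wG_single]; exact root_pts hq hK (by decide) (by decide +kernel) hneg)
        (by simp [k32])
      rwa [TwistedLie.wG_single] at this
    rw [nW_blk hq hK, show blkN 1 = [3] from rfl]
    simp only [nL, List.map_cons, List.map_nil, List.prod_singleton]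
    rw [Sys.nG_eq, s3, m3, inv_one]
    exact mul_mem (mul_mem a b) a
  have h01 : ((tw hq hK).nW [0, 1] : GL chevE6.Idx K) ∈ H' := by
    rw [show ([0, 1] : List (Fin 4)) = [0] ++ [1] from rfl, (tw hq hK).nW_append, Subgroup.coe_mul]
    exact mul_mem h46 h39
  -- a pair
  have hpair : ∀ (L : List (Fin 4)) (a b : ℕ) (h : Folded.Two chevE6 pE sgE qE a b),
      ((a = 0 ∧ b = 5) ∨ (a = 2 ∧ b = 4)) →
      ((tw hq hK).nW L : GL chevE6.Idx K) ∈ H' →
      intoQ L (chevE6.simple a) → intoQ L (chevE6.simple b) →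
      intoQ (topRefl ++ L) (chevE6.neg (chevE6.simple a)) →
      intoQ (topRefl ++ L) (chevE6.neg (chevE6.simple b)) →
      Folded.P S (phi hq hK) a b 1 ∈ H' ∧ nL S K [a, b] ∈ H' := by
    intro L a b h hab hL ia ib ja jb
    have hp := pair_mem hq hK hab
    have hgP : ∀ t, phi hq hK t = t → Folded.P S (phi hq hK) a b t ∈ pts hq hK ∧
        Folded.N S (phi hq hK) a b t ∈ pts hq hK := fun t ht => by
      refine ⟨(mem_pts hq hK).mpr ⟨(hp t).1, ?_⟩, (mem_pts hq hK).mpr ⟨(hp t).2, ?_⟩⟩ <;>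
        simp only [Folded.P, Folded.N, map_mul, gmap_xG S, ht]
    have hlt := fun i (hi : i < 6) => sysE6.wf.simple_lt i hi
    have P1 : Folded.P S (phi hq hK) a b 1 ∈ H' := by
      have := pull L ((tw hq hK).nW L) ((tw hq hK).perm_nW _) hL (nW_pts hq hK _)
        [(chevE6.simple a, 1), (chevE6.simple b, phi hq hK 1)]
        (by rw [wG_two]; exact (hgP 1 hone).1)
        (by
          simp only [List.forall_mem_cons, List.not_mem_nil, false_implies, implies_true, and_true]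
          exact ⟨⟨hlt a h.a_lt, ia⟩, hlt b h.b_lt, ib⟩)
      rwa [wG_two] at this
    have N1 : Folded.N S (phi hq hK) a b (-1) ∈ H' := by
      have := pull (topRefl ++ L) (N0 * (tw hq hK).nW L) (hmulp _ _ _ hN0p)
        (mul_mem hN0H hL) (mul_mem hN0P (nW_pts hq hK _))
        [(chevE6.neg (chevE6.simple a), -1), (chevE6.neg (chevE6.simple b), phi hq hK (-1))]
        (by rw [wG_two]; exact (hgP _ hneg).2)
        (by
          simp only [List.forall_mem_cons, List.not_mem_nil, false_implies, implies_true, and_true]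
          exact ⟨⟨sysE6.wf.neg_lt _ (hlt a h.a_lt), ja⟩, sysE6.wf.neg_lt _ (hlt b h.b_lt), jb⟩)
      rwa [wG_two] at this
    refine ⟨P1, ?_⟩
    have e := Folded.two_tor_n S (phi hq hK) h 1
    rw [show Folded.cP (phi hq hK) a b (1 : Kˣ) = 1 by simp [Folded.cP], map_one, one_mul] at e
    rw [e]
    simp only [Units.val_one, inv_one]
    exact mul_mem (mul_mem P1 N1) P1
  obtain ⟨P24, h24⟩ := hpair [0, 1] 2 4 two24 (Or.inr ⟨rfl, rfl⟩) h01 (s2 ▸ k42) (s4 ▸ k37)
    (by rw [s2, m2]; exact k29) (by rw [s4, m4]; exact k34)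
  have h012 : ((tw hq hK).nW [0, 1, 2] : GL chevE6.Idx K) ∈ H' := by
    rw [show ([0, 1, 2] : List (Fin 4)) = [0, 1] ++ [2] from rfl, (tw hq hK).nW_append,
      Subgroup.coe_mul, nW_blk hq hK]
    exact mul_mem h01 h24
  obtain ⟨P05, -⟩ := hpair [0, 1, 2] 0 5 two05 (Or.inl ⟨rfl, rfl⟩) h012 (s0 ▸ k56) (s5 ▸ k36)
    (by rw [s0, m0]; exact k15) (by rw [s5, m5]; exact k35)
  have hreps : ∀ r ∈ reps, orb hq hK r (1 : K) ∈ H' := by
    intro r hr
    rw [orb_one hq hK hr]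
    simp only [reps, List.mem_cons, List.not_mem_nil, or_false] at hr
    rcases hr with rfl | rfl | rfl | rfl
    · rw [if_pos (by decide +kernel)]
      exact hq_mem _ (root_pts hq hK (by decide) (by decide +kernel) hone)
        (Sys.xG_mem_uSub S K k46.2 k46.1 (show 46 < 72 by decide) 1)
    · rw [if_pos (by decide +kernel)]
      have := pull [0] ((tw hq hK).nW [0]) ((tw hq hK).perm_nW _) h46 (nW_pts hq hK _) [(39, 1)]
        (by rw [TwistedLie.wG_single]; exact root_pts hq hK (by decide) (by decide +kernel) hone)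
        (by simp [k39])
      rwa [TwistedLie.wG_single] at this
    · rw [if_neg (by decide +kernel), show pE 42 = 37 by decide +kernel]
      rwa [Folded.P, s2, s4, hone] at P24
    · rw [if_neg (by decide +kernel), show pE 56 = 36 by decide +kernel]
      rwa [Folded.P, s0, s5, hone] at P05
  obtain ⟨m, hm, t, hvm⟩ := conj_decomp hq hK hvG hvU fun r hr => by
    refine uni_fixed hq hK hM hHG hsmall ((hmem _).mp (hreps r hr)) ?_
    exact mul_mem (mul_mem hvU (orb_mem_U hq hK (reps_facts r hr).1 (reps_facts r hr).2.1 1))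
      (inv_mem hvU)
  set z := orb hq hK 66 t * Sys.xG S K 0 1 * (orb hq hK 66 t)⁻¹ with hz
  have hyz : v * Sys.xG S K 0 1 * v⁻¹ = m * z * m⁻¹ := by rw [hvm, hz]; group
  have hzH : z ∈ H := by
    have := mul_mem (mul_mem (inv_mem (hM hm)) hy) (hM hm)
    rw [hyz] at this
    simpa [mul_assoc] using this
  rw [low_conj hq hK] at hz
  obtain ⟨-, -, -, -, f60, l0, l21, l23, ht1, ht2⟩ := z_facts
  have hnorm : phi hq hK (-(t * phi hq hK t)) = -(t * phi hq hK t) := by
    rw [map_neg, map_mul, phi_phi hq hK, mul_comm]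
  have hz' : Sys.xG S K 0 1 * Sys.xG S K 21 t * Sys.xG S K 23 (phi hq hK t) ∈ H := by
    have := mul_mem hzH (inv_mem (hM (root_pts hq hK (show 60 < 72 by decide) f60 hnorm)))
    rwa [hz, mul_inv_cancel_right] at this
  set n := ((tw hq hK).nW longWord : GL chevE6.Idx K)
  have hnH : n ∈ H := hM (nW_pts hq hK _)
  have hcj := mul_mem (mul_mem hnH hz') (inv_mem hnH)
  obtain ⟨c₁, -, h1⟩ := nW_conj hq hK longWord (show 0 < 72 by decide)
  obtain ⟨c₂, hc₂, h2⟩ := nW_conj hq hK longWord (show 21 < 72 by decide)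
  obtain ⟨c₃, -, h3⟩ := nW_conj hq hK longWord (show 23 < 72 by decide)
  rw [l0] at h1
  rw [l21] at h2
  rw [l23] at h3
  rw [show n * (Sys.xG S K 0 1 * Sys.xG S K 21 t * Sys.xG S K 23 (phi hq hK t)) * n⁻¹ =
      (n * Sys.xG S K 0 1 * n⁻¹) * (n * Sys.xG S K 21 t * n⁻¹) *
        (n * Sys.xG S K 23 (phi hq hK t) * n⁻¹) by group, h1, h2, h3] at hcj
  have hgf := uni_fixed hq hK hM hHG hsmall hcj
    (mul_mem (mul_mem (mem_U (by decide) (by decide) _) (mem_U (by decide) (by decide) _))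
      (mem_U (by decide) (by decide) _))
  have d48 : (48 : ℕ) < chevE6.nroots := by decide
  have p48 : chevE6.nroots / 2 ≤ 48 := by decide
  have hl := lead_mul S d48 p48 (lead_mul S d48 p48
    (lead_xG S d48 p48 (show 71 < chevE6.nroots by decide) (show chevE6.nroots / 2 ≤ 71 by decide)
      ht1 (c₁ * 1))
    (lead_self S d48 p48 (c₂ * t)))
    (lead_xG S d48 p48 (show 50 < chevE6.nroots by decide) (show chevE6.nroots / 2 ≤ 50 by decide)
      ht2 (c₃ * phi hq hK t))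
  rw [if_neg (by decide), if_neg (by decide), zero_add, add_zero] at hl
  have hl' := lead_gmap S d48 p48 (phi hq hK) hl
  rw [((mem_pts hq hK).mp hgf).2] at hl'
  have hfix := lead_unique S d48 p48 hl' hl
  rw [map_mul, phi_pm hq hK hc₂] at hfix
  have htf : phi hq hK t = t := mul_left_cancel₀ (by rcases hc₂ with rfl | rfl <;> simp) hfix
  rw [hvm]
  exact mul_mem (mul_mem (mul_mem hm (orb_pts hq hK (by decide) (by decide) htf))
    (root_pts hq hK (by decide) (by decide +kernel) hone))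
    (inv_mem (mul_mem hm (orb_pts hq hK (by decide) (by decide) htf)))

/-- A vector at the lowest root only comes from the lowest root. -/
theorem low_row {v : GL chevE6.Idx K} (hv : v ∈ chevE6.posUnipotent K) {k : ℕ}
    (h : crd chevE6 ((v : Matrix chevE6.Idx chevE6.Idx K) *ᵥ evec chevE6 K k) 0 ≠ 0) : k = 0 := by
  rw [Sys.pos_unipotent_row_zero S K hv (by decide), crd_evec (by decide)] at h
  by_contra hk
  rw [if_neg (Ne.symm hk)] at h
  exact h rfl

/-- Conjugates of the highest root element in an overgroup are points. -/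
theorem long_pts {H : Subgroup (GL chevE6.Idx K)} (hM : pts hq hK ≤ H) (hHG : H ≤ G1)
    (hsmall : ∀ t, orb hq hK 66 t ∈ H → phi hq hK t = t) {g : GL chevE6.Idx K} (hg : g ∈ H) :
    g * Sys.xG S K 71 1 * g⁻¹ ∈ pts hq hK := by
  obtain ⟨v, hv, k, hk, c, hkf, hc0, -, -, hgv⟩ := cover_top hq hK (hHG hg)
  set n := ((tw hq hK).nW (lowW k) : GL chevE6.Idx K) with hn
  have hnP := nW_pts hq hK (lowW k)
  obtain ⟨e, he, hrow⟩ := crd_nW hq hK (lowW k) hk
  rw [lowW_spec k hk hkf] at hrow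
  have hnz : crd chevE6 (((n * g : GL chevE6.Idx K) : Matrix chevE6.Idx chevE6.Idx K) *ᵥ
      evec chevE6 K 71) 0 ≠ 0 := by
    rw [Units.val_mul, ← Matrix.mulVec_mulVec, hn, hrow, hgv, crd_smul, (crd_pos hv.1 hk).1,
      mul_one]
    exact mul_ne_zero (by rcases he with rfl | rfl <;> simp) hc0
  obtain ⟨w, hw, k', -, d, -, hd0, hdf, hgw', hgw⟩ :=
    cover_top hq hK (mul_mem (pts_le hq hK hnP) (hHG hg))
  rw [hgw, crd_smul] at hnz
  obtain rfl := low_row hq hK hw.1 (right_ne_zero_of_mul hnz)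
  suffices hy : w * Sys.xG S K 0 d * w⁻¹ ∈ pts hq hK by
    have h1 := mul_mem (mul_mem (inv_mem hnP) (hgw' ▸ hy)) hnP
    convert h1 using 1
    group
  have hwH : w * Sys.xG S K 0 d * w⁻¹ ∈ H := by
    rw [← hgw']
    exact mul_mem (mul_mem (mul_mem (hM hnP) hg) (hM (root_pts hq hK (by decide) top_rho (map_one _))))
      (inv_mem (mul_mem (hM hnP) hg))
  -- scale by the torus
  set a := Units.mk0 d hd0
  have hn46 : ∀ f : K, phi hq hK f = f → Sys.nG S K 46 f ∈ pts hq hK := fun f hf => by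
    rw [Sys.nG_eq]
    exact mul_mem (mul_mem (root_pts hq hK (by decide) (by decide +kernel) hf)
      (root_pts hq hK (sysE6.wf.neg_lt 46 (by decide)) (by decide +kernel)
        (by rw [map_neg, map_inv₀, hf])))
      (root_pts hq hK (by decide) (by decide +kernel) hf)
  set τ := Sys.nG S K 46 (a : K) * Sys.nG S K 46 (-1) with hτ
  have hτP : τ ∈ pts hq hK := mul_mem (hn46 _ hdf) (hn46 _ (by rw [map_neg, map_one]))
  have hτx : τ * Sys.xG S K 0 d * τ⁻¹ = Sys.xG S K 0 1 := by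
    rw [hτ, Sys.hRoot_conj S K (by decide) (by decide) a d,
      show chevE6.pairing 46 0 = -1 by decide +kernel, zpow_neg_one]
    congr 1
    exact inv_mul_cancel₀ hd0
  have hu : τ * w * τ⁻¹ ∈ chevE6.posUnipotent K ⊓ G1 := by
    refine ⟨?_, mul_mem (mul_mem (pts_le hq hK hτP) (Subgroup.mem_inf.mp hw).2) (Subgroup.inv_mem _ (pts_le hq hK hτP))⟩
    refine (Subgroup.mem_normalizer_iff.mp (Sys.diagonal_le_normalizer S K ?_) w).mp hw.1
    exact Subgroup.subset_closure ⟨46, (a : K), by decide, Units.ne_zero a,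
      by rw [Sys.hMat_eq S, hτ, Units.val_mul, Sys.nG_val S, Sys.nG_val S]⟩
  have hconj : τ * (w * Sys.xG S K 0 d * w⁻¹) * τ⁻¹ =
      τ * w * τ⁻¹ * Sys.xG S K 0 1 * (τ * w * τ⁻¹)⁻¹ := by
    rw [← hτx]; group
  obtain ⟨r, hrQ, hrG, hre⟩ := exists_radical hq hK (Subgroup.mem_inf.mp hu).1
    (Subgroup.mem_inf.mp hu).2
  have hpt := low_case hq hK hM hHG hsmall hrQ hrG (by
    rw [← hre, ← hconj]
    exact mul_mem (mul_mem (hM hτP) hwH) (inv_mem (hM hτP)))
  rw [← hre, ← hconj] at hpt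
  have := mul_mem (mul_mem (inv_mem hτP) hpt) hτP
  convert this using 1
  group

end CfsgLib.TwistSub.E6
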