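import Cfsg.Agent.TwistSub.E6Large
import Cfsg.Agent.TwistSub.E6Long

/-!
The subgroup of points over the field with `q` elements is maximal in `²E₆(q)`.
-/

set_option autoImplicit false
set_option linter.unusedSectionVars false

namespace CfsgLib.TwistSub.E6

open Cfsg.Lie CfsgLib.Chevalley CfsgLib.TwistedLie CfsgLib.TwistedLie.E6 CfsgLib.ChevField
  CfsgLib.ChevSubfield
open scoped Matrix

local notation "S" => sysE6

/-- Twice the height of a root, as a combination of pairings with four fixed roots. -/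
def fixedHt (a : ℕ) : ℤ :=
  22 * chevE6.pairing 46 a + 12 * chevE6.pairing 39 a + 14 * chevE6.pairing 44 a +
    16 * chevE6.pairing 60 a

theorem fixedHt_pos : ∀ a < 72, (36 ≤ a → 0 < fixedHt a) ∧ (a < 36 → fixedHt a < 0) := by
  decide +kernel

theorem pairing_pos : ∀ a < 72, ∀ b < 72, 36 ≤ a →
    (∀ r < 72, 36 ≤ r → pE r = r → chevE6.pairing r a = chevE6.pairing r b) → 36 ≤ b := by
  intro a ha b hb h36 h
  have e : fixedHt a = fixedHt b := by
    rw [fixedHt, fixedHt, h 46 (by decide) (by decide) (by decide +kernel),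
      h 39 (by decide) (by decide) (by decide +kernel),
      h 44 (by decide) (by decide) (by decide +kernel),
      h 60 (by decide) (by decide) (by decide +kernel)]
  by_contra hlt
  have h1 := (fixedHt_pos a ha).1 h36
  have h2 := (fixedHt_pos b hb).2 (by omega)
  omega

theorem reps_cover : ∀ i < 6, ∃ r ∈ reps, chevE6.simple i = r ∨ chevE6.simple i = pE r := by
  decide +kernel

variable {K : Type*} [Field K] [Fintype K] {q : ℕ}

local notation "G1" => chevE6.genSubgroup K (e6Words K q)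

theorem crd_tor (a : ℕ → Kˣ) (x : chevE6.Idx → K) {u : ℕ} (hu : u < 72) :
    crd chevE6 ((tor chevE6 K a : Matrix chevE6.Idx chevE6.Idx K) *ᵥ x) u =
      (torusVal chevE6 a u : K) * crd chevE6 x u := by
  have hu' : u < chevE6.nroots := hu
  rw [Sys.tor_val S, dg, crd, dif_pos hu', crd, dif_pos hu', Matrix.mulVec_diagonal]
  rfl

variable (hq : IsPrimePow q) (hK : Fintype.card K = q ^ 2)
include hq hK

theorem longWord_nL :
    ((tw hq hK).nW longWord : GL chevE6.Idx K) = nL S K (wdN longWord) := by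
  show (Sys.wN S K (longWord.flatMap blkF) : GL chevE6.Idx K) = _
  rw [wN_nL, List.map_flatMap]
  simp [wdN, blkF_val]

/-- The elements centralising all conjugates of the highest root element by points. -/
def Centr (δ : GL chevE6.Idx K) : Prop :=
  ∀ m ∈ pts hq hK, Commute δ (m * Sys.xG S K 71 1 * m⁻¹)

theorem centr_conj {δ : GL chevE6.Idx K} (h : Centr hq hK δ) {p : GL chevE6.Idx K}
    (hp : p ∈ pts hq hK) : Centr hq hK (p * δ * p⁻¹) := by
  intro m hm
  have h1 := (h (p⁻¹ * m) (mul_mem (inv_mem hp) hm)).eq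
  show _ * _ = _ * _
  calc p * δ * p⁻¹ * (m * Sys.xG S K 71 1 * m⁻¹)
      = p * (δ * (p⁻¹ * m * Sys.xG S K 71 1 * (p⁻¹ * m)⁻¹)) * p⁻¹ := by group
    _ = p * (p⁻¹ * m * Sys.xG S K 71 1 * (p⁻¹ * m)⁻¹ * δ) * p⁻¹ := by rw [h1]
    _ = _ := by group

/-- Such elements fix the long root vectors. -/
theorem centr_vec {δ : GL chevE6.Idx K} (hδ : δ ∈ G1) (h : Centr hq hK δ) {r : ℕ} (hr : r < 72)
    (hf : pE r = r) :
    (δ : Matrix chevE6.Idx chevE6.Idx K) *ᵥ evec chevE6 K r = evec chevE6 K r := by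
  set n := ((tw hq hK).nW (topW r) : GL chevE6.Idx K) with hn
  have hnP := nW_pts hq hK (topW r)
  have h71 : (71 : ℕ) < chevE6.nroots := by decide
  have hgG : n⁻¹ * δ * n ∈ G1 :=
    mul_mem (mul_mem (Subgroup.inv_mem _ (pts_le hq hK hnP)) hδ) (pts_le hq hK hnP)
  obtain ⟨v, hv, k, hk, c, -, hc0, -, hconj, hvec⟩ := cover_top hq hK hgG
  have h1 := (h n hnP).eq
  have hself : n⁻¹ * δ * n * Sys.xG S K 71 1 * (n⁻¹ * δ * n)⁻¹ = Sys.xG S K 71 1 := by
    calc n⁻¹ * δ * n * Sys.xG S K 71 1 * (n⁻¹ * δ * n)⁻¹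
        = n⁻¹ * (δ * (n * Sys.xG S K 71 1 * n⁻¹)) * δ⁻¹ * n := by group
      _ = _ := by rw [h1]; group
  rw [hself] at hconj
  have hcom : Commute (Sys.xG S K 71 1) v := Sys.top_commute_pos S K highE6 hv.1 1
  have hxk : Sys.xG S K k c = Sys.xG S K 71 1 := by
    calc Sys.xG S K k c = v⁻¹ * (v * Sys.xG S K k c * v⁻¹) * v := by group
      _ = v⁻¹ * Sys.xG S K 71 1 * v := by rw [← hconj]
      _ = _ := by rw [mul_assoc, hcom.eq, inv_mul_cancel_left]
  have hk71 : k = 71 := Sys.top_of_xG_eq S K highE6 hk hc0 (u := 1) hxk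
  subst hk71
  obtain rfl : c = 1 := CfsgLib.ChevField.xG_inj S h71 hxk
  rw [one_smul, pos_fix71 hv.1] at hvec
  obtain ⟨e, he, -, hact⟩ := Sys.wN_act S K ((topW r).flatMap blkF) ⟨71, h71⟩
  rw [wperm_flat (topW r) ⟨71, h71⟩, topW_spec r hr hf] at hact
  have hact' : (n : Matrix chevE6.Idx chevE6.Idx K) *ᵥ evec chevE6 K 71 = e • evec chevE6 K r :=
    hact
  have h2 : ((δ * n : GL chevE6.Idx K) : Matrix chevE6.Idx chevE6.Idx K) *ᵥ evec chevE6 K 71 =
      (n : Matrix chevE6.Idx chevE6.Idx K) *ᵥ evec chevE6 K 71 := by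
    rw [show δ * n = n * (n⁻¹ * δ * n) by group, Units.val_mul, ← Matrix.mulVec_mulVec, hvec]
  rw [Units.val_mul, ← Matrix.mulVec_mulVec, hact', Matrix.mulVec_smul] at h2
  exact smul_right_injective _ (by rcases he with rfl | rfl <;> simp) h2

/-- Such elements lie in the Borel part. -/
theorem centr_borel {δ : GL chevE6.Idx K} (hδ : δ ∈ G1) (h : Centr hq hK δ) :
    δ ∈ chevE6.borelSubgroup K := by
  set E := tw hq hK
  obtain ⟨b, hb, L, b', hb', e⟩ := E.cover hδ
  have hd : ∀ x ∈ E.T, ∃ a, tor chevE6 K a = x := fun x hx => by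
    have := E.T_le hx
    rw [Sys.diagonal_eq S] at this
    exact this
  obtain ⟨v, hv, t, ht, hbe⟩ := E.mem_B1.mp hb
  obtain ⟨v', hv', t', ht', hbe'⟩ := E.mem_B1.mp hb'
  obtain ⟨a, rfl⟩ := hd t ht
  obtain ⟨a', rfl⟩ := hd t' ht'
  set n := (E.nW L : GL chevE6.Idx K)
  have hup : ∀ r < 72, 36 ≤ r → pE r = r → r ≤ wL chevE6 (wdN L) r := by
    intro r hr _ hf
    have hw := wL_lt72 L hr
    obtain ⟨e', he', hrow⟩ := crd_nW hq hK L hr
    have h1 : (n * (v' * tor chevE6 K a')) = (tor chevE6 K a)⁻¹ * (v⁻¹ * δ) := by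
      rw [e, hbe, hbe']
      group
    have h2 : crd chevE6 (((n * (v' * tor chevE6 K a') : GL chevE6.Idx K) :
        Matrix chevE6.Idx chevE6.Idx K) *ᵥ evec chevE6 K r) (wL chevE6 (wdN L) r) ≠ 0 := by
      rw [Units.val_mul, Units.val_mul, ← Matrix.mulVec_mulVec, hrow, ← Matrix.mulVec_mulVec,
        Sys.tor_evec S K a' (show r < chevE6.nroots from hr), Matrix.mulVec_smul, crd_smul,
        (crd_pos hv'.1 hr).1, mul_one]
      exact mul_ne_zero (by rcases he' with rfl | rfl <;> simp) (Units.ne_zero _)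
    rw [h1, ← map_inv, Units.val_mul, Units.val_mul, ← Matrix.mulVec_mulVec,
      ← Matrix.mulVec_mulVec, centr_vec hq hK hδ h hr hf, crd_tor _ _ hw] at h2
    exact (crd_pos (inv_mem hv.1) hr).2 _ (right_ne_zero_of_mul h2)
  have hfixw : ∀ n : ℕ, ∀ r < 72, 36 ≤ r → pE r = r → 72 ≤ r + n → wL chevE6 (wdN L) r = r := by
    intro n
    induction n with
    | zero => intro r hr _ _ hn; omega
    | succ n ih =>
      intro r hr hp hf hn
      have h1 := hup r hr hp hf
      by_contra hne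
      have hw := wL_lt72 L hr
      have hwf : pE (wL chevE6 (wdN L) r) = wL chevE6 (wdN L) r := by
        have e1 := E.wW_ρ L ⟨r, hr⟩
        have e2 : E.ρ ⟨r, hr⟩ = ⟨r, hr⟩ := Fin.ext hf
        rw [e2] at e1
        have e3 : (E.wW L ⟨r, hr⟩ : ℕ) = wL chevE6 (wdN L) r := wperm_flat L ⟨r, hr⟩
        rw [← e3]
        exact (congrArg Fin.val e1).symm
      have h2 := ih _ hw (by omega) hwf (by omega)
      have h3 : E.wW L (E.wW L ⟨r, hr⟩) = E.wW L ⟨r, hr⟩ := Fin.ext (by
        show (Sys.wperm S (L.flatMap blkF) (Sys.wperm S (L.flatMap blkF) ⟨r, hr⟩) : ℕ) =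
          Sys.wperm S (L.flatMap blkF) ⟨r, hr⟩
        rw [wperm_flat, wperm_flat]
        exact h2)
      have h4 := congrArg Fin.val ((E.wW L).injective h3)
      rw [show (E.wW L ⟨r, hr⟩ : ℕ) = wL chevE6 (wdN L) r from wperm_flat L ⟨r, hr⟩] at h4
      exact hne h4
  have hpos : ∀ s : Fin chevE6.nroots, chevE6.nroots / 2 ≤ (s : ℕ) →
      chevE6.nroots / 2 ≤ (Sys.wperm S (L.flatMap blkF) s : ℕ) := by
    intro s hs
    refine pairing_pos (s : ℕ) s.isLt _ (Fin.isLt _) hs fun r hr hp hf => ?_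
    have h1 := Sys.pairing_wperm S (L.flatMap blkF) ⟨r, hr⟩ s
    rw [show (Sys.wperm S (L.flatMap blkF) ⟨r, hr⟩ : ℕ) = r by
      rw [wperm_flat]; exact hfixw 72 r hr hp hf (by omega)] at h1
    exact h1.symm
  have hT : n ∈ E.T := E.nW_mem_T (Sys.wperm_eq_one S K (L.flatMap blkF) hpos)
  rw [e]
  exact (E.B1_le (mul_mem (mul_mem hb (E.T_le_B1 hT)) hb')).1

/-- Such elements are trivial. -/
theorem centr_eq_one {δ : GL chevE6.Idx K} (hδ : δ ∈ G1) (h : Centr hq hK δ) : δ = 1 := by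
  have hdiag : ∀ ε ∈ G1, Centr hq hK ε → ε ∈ chevE6.diagonalSubgroup K := by
    intro ε hε hc
    refine mem_diag_of_conj S K (wdN_lt longWord) (fun r h1 h2 => long_neg r h2 h1)
      (centr_borel hq hK hε hc) ?_
    rw [← longWord_nL hq hK]
    exact centr_borel hq hK
      (mul_mem (mul_mem (pts_le hq hK (nW_pts hq hK longWord)) hε)
        (Subgroup.inv_mem _ (pts_le hq hK (nW_pts hq hK longWord))))
      (centr_conj hq hK hc (nW_pts hq hK longWord))
  have hd := hdiag δ hδ h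
  have hd' := hd
  rw [Sys.diagonal_eq S] at hd'
  obtain ⟨c, rfl⟩ := hd'
  refine tor_eq_one_of_simple S K c fun i hi => ?_
  obtain ⟨r, hr, hsim⟩ := reps_cover i hi
  obtain ⟨hr1, hr2, -, -⟩ := reps_facts r hr
  set y := orb hq hK r (1 : K) with hy
  have hyP : y ∈ pts hq hK := orb_pts hq hK hr1 hr2 (map_one _)
  have hyU : y ∈ chevE6.posUnipotent K := orb_mem_U hq hK hr1 hr2 1
  have h1 : y * tor chevE6 K c * y⁻¹ ∈ chevE6.diagonalSubgroup K :=
    hdiag _ (mul_mem (mul_mem (pts_le hq hK hyP) hδ) (Subgroup.inv_mem _ (pts_le hq hK hyP)))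
      (centr_conj hq hK h hyP)
  have h2 : y * (tor chevE6 K c * y⁻¹ * (tor chevE6 K c)⁻¹) ∈
      chevE6.posUnipotent K ⊓ chevE6.diagonalSubgroup K := by
    refine ⟨mul_mem hyU ?_, ?_⟩
    · exact (Subgroup.mem_normalizer_iff.mp (Sys.diagonal_le_normalizer S K hd) _).mp (inv_mem hyU)
    · have := mul_mem h1 (inv_mem hd)
      simpa [mul_assoc] using this
  rw [Sys.posUnipotent_inf_diagonal S K, Subgroup.mem_bot] at h2
  have heq : tor chevE6 K c * y * (tor chevE6 K c)⁻¹ = y := by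
    have h3 := mul_eq_one_iff_eq_inv.mp h2
    conv_rhs => rw [h3]
    group
  obtain ⟨e1, -, -, e4⟩ := rho_facts r hr1
  have d1 : r < chevE6.nroots := hr1
  have p1 : chevE6.nroots / 2 ≤ r := hr2
  have d2 : pE r < chevE6.nroots := e1
  have p2 : chevE6.nroots / 2 ≤ pE r := e4 hr2
  rw [hy, orb_one hq hK hr] at heq
  by_cases hf : pE r = r
  · rw [if_pos hf, Sys.tor_conj S K c d1, mul_one] at heq
    have h3 : torusVal chevE6 c r = 1 := Units.ext (CfsgLib.ChevField.xG_inj S d1 heq)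
    rcases hsim with e | e
    · rw [e]; exact h3
    · rw [e, hf]; exact h3
  · rw [if_neg hf,
      show tor chevE6 K c * (Sys.xG S K r 1 * Sys.xG S K (pE r) 1) * (tor chevE6 K c)⁻¹ =
        tor chevE6 K c * Sys.xG S K r 1 * (tor chevE6 K c)⁻¹ *
          (tor chevE6 K c * Sys.xG S K (pE r) 1 * (tor chevE6 K c)⁻¹) by group,
      Sys.tor_conj S K c d1, Sys.tor_conj S K c d2, mul_one, mul_one] at heq
    have hh : Sys.height S (pE r) = Sys.height S r := rho_height r hr1
    have l1 : ∀ x y : K, IsLead S r (Sys.xG S K r x * Sys.xG S K (pE r) y) x := fun x y => by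
      have := lead_mul S d1 p1 (lead_self S d1 p1 x) (lead_xG S d1 p1 d2 p2 hh.ge y)
      rwa [if_neg hf, add_zero] at this
    have l2 : ∀ x y : K, IsLead S (pE r) (Sys.xG S K r x * Sys.xG S K (pE r) y) y := fun x y => by
      have := lead_mul S d2 p2 (lead_xG S d2 p2 d1 p1 hh.le x) (lead_self S d2 p2 y)
      rwa [if_neg (Ne.symm hf), zero_add] at this
    rcases hsim with e | e
    · rw [e]
      refine Units.ext (lead_unique S d1 p1 ?_ (l1 1 1))
      rw [← heq]
      exact l1 _ _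
    · rw [e]
      refine Units.ext (lead_unique S d2 p2 ?_ (l2 1 1))
      rw [← heq]
      exact l2 _ _

/-- An overgroup of the points is the points or everything. -/
theorem overgroup {H : Subgroup (GL chevE6.Idx K)} (hM : pts hq hK ≤ H) (hHG : H ≤ G1) :
    H = pts hq hK ∨ H = G1 := by
  by_cases hl : ∃ t, orb hq hK 66 t ∈ H ∧ phi hq hK t ≠ t
  · obtain ⟨t, h1, h2⟩ := hl
    exact Or.inr (eq_of_large hq hK hM hHG h1 h2)
  push Not at hl
  refine Or.inl (le_antisymm (fun g hg => ?_) hM)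
  have hgG := hHG hg
  refine (mem_pts hq hK).mpr ⟨hgG, ?_⟩
  have hδ : g⁻¹ * gmap chevE6 (phi hq hK) g = 1 := by
    refine centr_eq_one hq hK
      (mul_mem (Subgroup.inv_mem _ hgG) (gmap_G1 hq hK hgG)) fun m hm => ?_
    have h1 := long_pts hq hK hM hHG hl (mul_mem hg (hM hm))
    have hx : gmap chevE6 (phi hq hK) (Sys.xG S K 71 (1 : K)) = Sys.xG S K 71 1 := by
      rw [gmap_xG S, map_one]
    have h2 := ((mem_pts hq hK).mp h1).2
    have hm2 := ((mem_pts hq hK).mp hm).2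
    rw [map_mul, map_mul, map_inv, map_mul, hx, hm2] at h2
    set φg := gmap chevE6 (phi hq hK) g
    set u := m * Sys.xG S K 71 1 * m⁻¹ with hu
    have h3 : φg * u * φg⁻¹ = g * u * g⁻¹ := by
      rw [hu]
      calc _ = φg * m * Sys.xG S K 71 1 * (φg * m)⁻¹ := by group
        _ = g * m * Sys.xG S K 71 1 * (g * m)⁻¹ := h2
        _ = _ := by group
    show g⁻¹ * φg * u = u * (g⁻¹ * φg)
    calc g⁻¹ * φg * u = g⁻¹ * (φg * u * φg⁻¹) * φg := by group
      _ = _ := by rw [h3]; group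
  exact (inv_mul_eq_one.mp hδ).symm

/-- The points are a proper subgroup. -/
theorem pts_ne : pts hq hK ≠ G1 := by
  obtain ⟨t, ht⟩ : ∃ t : K, phi hq hK t ≠ t := by
    by_contra hall
    push Not at hall
    have h1 := card_fixedAdd K hq hK (phi_apply hq hK)
    have h2 : fixedAdd K (phi hq hK) = ⊤ :=
      eq_top_iff.mpr fun t _ => (mem_fixedAdd K).mpr (hall t)
    rw [h2, Nat.card_congr AddSubgroup.topEquiv.toEquiv, Nat.card_eq_fintype_card, hK] at h1
    have := hq.two_le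
    nlinarith
  intro h
  have ha : 66 < chevE6.nroots := by decide
  have hp : chevE6.nroots / 2 ≤ 66 := by decide
  have ho : orb hq hK 66 t ∈ G1 :=
    orb_G1 hq hK ha hp fun h => absurd h (by rw [short_top.2.2.1]; decide)
  rw [← h] at ho
  have hl := lead_orb hq hK ha hp ha hp rfl t
  rw [if_pos rfl] at hl
  have hl' := lead_gmap S ha hp (phi hq hK) hl
  rw [((mem_pts hq hK).mp ho).2] at hl'
  exact ht (lead_unique S ha hp hl' hl)

end CfsgLib.TwistSub.E6
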