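import Cfsg.Agent.TwistSub.Lead
import Cfsg.Agent.TwistedLie.E6Facts

/-!
`²E₆(q)`: the points over the field with `q` elements, the fixed elements attached to the orbits of
roots, and peeling of fixed unipotent elements.
-/

set_option autoImplicit false
set_option linter.unusedSectionVars false

namespace CfsgLib.TwistSub.E6

open Cfsg.Lie CfsgLib.Chevalley CfsgLib.TwistedLie CfsgLib.TwistedLie.E6 CfsgLib.ChevField
  CfsgLib.ChevSubfield

local notation "S" => sysE6

theorem fix_sign : ∀ r < 72, pE r = r → sgE r = 1 := by decide +kernel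

theorem rho_facts : ∀ r < 72, pE r < 72 ∧ pE (pE r) = r ∧ sgE (pE r) * sgE r = 1 ∧
    (36 ≤ r → 36 ≤ pE r) := by decide +kernel

theorem rho_height : ∀ r < 72, Sys.height sysE6 (pE r) = Sys.height sysE6 r := by decide +kernel

theorem rho_orth : ∀ r < 72, pE r ≠ r →
    chevE6.commTerms r (pE r) = [] ∧ pE r ≠ chevE6.neg r := by decide +kernel

/-- The action of the Coxeter word on the roots. -/
def coxTab : List ℕ :=
  [1, 2, 11, 12, 5, 26, 27, 16, 46, 30, 31, 47, 33, 34, 50, 61, 3, 4,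
    0, 13, 6, 7, 28, 17, 18, 32, 14, 8, 9, 15, 29, 19, 20, 48, 35, 49,
    22, 36, 23, 51, 52, 42, 56, 62, 63, 57, 39, 53, 54, 43, 64, 65, 58, 71,
    67, 68, 10, 21, 37, 38, 24, 40, 41, 25, 55, 44, 45, 66, 59, 60, 69, 70]

theorem cox_eq : ∀ r < 72, wL chevE6 (wdN [0, 1, 2, 3]) r = coxTab.getD r 0 := by decide +kernel

theorem wL_append (L M : List ℕ) (r : ℕ) : wL chevE6 (L ++ M) r = wL chevE6 L (wL chevE6 M r) :=
  List.foldr_append

theorem long_eq : ∀ r < 72, wL chevE6 (wdN longWord) r = 71 - pE r := by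
  intro r hr
  set w := wdN [0, 1, 2, 3] with hw
  have e : wdN longWord = w ++ (w ++ (w ++ (w ++ (w ++ w)))) := by rw [hw]; rfl
  have hk : ∀ s < 72, coxTab.getD s 0 < 72 := by decide +kernel
  rw [e, wL_append, wL_append, wL_append, wL_append, wL_append, cox_eq r hr,
    cox_eq _ (hk r hr), cox_eq _ (hk _ (hk r hr)), cox_eq _ (hk _ (hk _ (hk r hr))),
    cox_eq _ (hk _ (hk _ (hk _ (hk r hr)))), cox_eq _ (hk _ (hk _ (hk _ (hk _ (hk r hr)))))]
  exact (by decide +kernel : ∀ r < 72, coxTab.getD (coxTab.getD (coxTab.getD (coxTab.getD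
    (coxTab.getD (coxTab.getD r 0) 0) 0) 0) 0) 0 = 71 - pE r) r hr

theorem long_invol : ∀ r < 72, wL chevE6 (wdN longWord) (wL chevE6 (wdN longWord) r) = r := by
  intro r hr
  rw [long_eq r hr, long_eq _ (by omega)]
  exact (by decide +kernel : ∀ r < 72, 71 - pE (71 - pE r) = r) r hr

theorem long_fixed : ∀ r < 72, pE r = r →
    pE (wL chevE6 (wdN longWord) r) = wL chevE6 (wdN longWord) r := by
  intro r hr hf
  rw [long_eq r hr]
  exact (by decide +kernel : ∀ r < 72, pE r = r → pE (71 - pE r) = 71 - pE r) r hr hf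

theorem wdN_lt (L : List (Fin 4)) : ∀ i ∈ wdN L, i < 6 := by
  intro i hi
  obtain ⟨j, -, hj⟩ := List.mem_flatMap.mp hi
  exact blkN_lt j i hj

theorem wL_lt72 (L : List (Fin 4)) {r : ℕ} (hr : r < 72) : wL chevE6 (wdN L) r < 72 :=
  wL_lt S (wdN_lt L) hr

variable {K : Type*} [Field K] [Fintype K] {q : ℕ}

local notation "G1" => chevE6.genSubgroup K (e6Words K q)

theorem wG_two (r s : ℕ) (t u : K) :
    Sys.wG S K [(r, t), (s, u)] = Sys.xG S K r t * Sys.xG S K s u := by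
  simp [Sys.wG]

theorem mem_U {r : ℕ} (h1 : 36 ≤ r) (h2 : r < 72) (t : K) :
    Sys.xG S K r t ∈ chevE6.posUnipotent K := by
  rw [← uSub_univ]
  exact Sys.xG_mem_uSub S K (Set.mem_univ _) h1 h2 t

variable (hq : IsPrimePow q) (hK : Fintype.card K = q ^ 2)
include hq hK

theorem sigma_xG {r : ℕ} (hr : r < 72) (t : K) :
    sigma hq hK (Sys.xG S K r t) = Sys.xG S K (pE r) ((sgE r : K) * phi hq hK t) :=
  twistHom_x S K graphE6 (phi hq hK) hr t

theorem sigma_G1 {g : GL chevE6.Idx K} (hg : g ∈ G1) : sigma hq hK g = g :=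
  (tw hq hK).σ_mem hg

theorem sg_phi (r : ℕ) : phi hq hK (sgE r : K) = sgE r := map_intCast _ _

theorem fixed_param {r : ℕ} (hr : r < 72) (hf : pE r = r) {t : K}
    (h : Sys.xG S K r t ∈ G1) : phi hq hK t = t := by
  have h1 := sigma_G1 hq hK h
  rw [sigma_xG hq hK hr, hf, fix_sign r hr hf, Int.cast_one, one_mul] at h1
  exact CfsgLib.ChevField.xG_inj S hr h1

theorem mem_G1_of_fixed {u : GL chevE6.Idx K} (hu : u ∈ chevE6.posUnipotent K)
    (h : sigma hq hK u = u) : u ∈ G1 := by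
  have hL : ∀ s : Fin chevE6.nroots, chevE6.nroots / 2 ≤ (s : ℕ) →
      ((tw hq hK).wW longWord s : ℕ) < chevE6.nroots / 2 := fun s hs => by
    show (Sys.wperm S (longWord.flatMap blkF) s : ℕ) < _
    rw [wperm_flat]
    exact long_neg (s : ℕ) s.isLt hs
  have h1 : u ∈ (tw hq hK).flipFix longWord := by
    refine (tw hq hK).mem_flipFix.mpr ⟨?_, h⟩
    have hle : chevE6.posUnipotent K ≤
        uSub chevE6 K (Sys.flipSet S K ((tw hq hK).nW longWord)) := by
      rw [← uSub_univ]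
      refine Sys.uSub_le S K fun r _ h1 h2 t => Sys.xG_mem_uSub S K ?_ h1 h2 t
      exact ⟨h2, by rw [(tw hq hK).perm_nW]; exact hL ⟨r, h2⟩ h1⟩
    exact hle hu
  exact (tw hq hK).flipFix_le_G longWord h1

theorem gmap_G1 {g : GL chevE6.Idx K} (hg : g ∈ G1) : gmap chevE6 (phi hq hK) g ∈ G1 := by
  have hle : G1 ≤ (G1).comap (gmap chevE6 (phi hq hK)) := by
    refine gen_le S K fun w hw => ?_
    rw [Subgroup.mem_comap, gmap_wG S]
    refine wG_mem_gen S K ?_
    rcases hw with ⟨t, ht, r, hr, rfl⟩ | ⟨t, rs, hrs, rfl⟩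
    · exact Or.inl ⟨phi hq hK t, by rw [← map_pow, ht], r, hr, rfl⟩
    · exact Or.inr ⟨phi hq hK t, rs, hrs, by simp [map_pow]⟩
  exact hle hg

/-- The points over the field with `q` elements. -/
noncomputable def pts : Subgroup (GL chevE6.Idx K) :=
  G1 ⊓ (gmap chevE6 (phi hq hK)).eqLocus (MonoidHom.id _)

theorem mem_pts {g : GL chevE6.Idx K} :
    g ∈ pts hq hK ↔ g ∈ G1 ∧ gmap chevE6 (phi hq hK) g = g := Iff.rfl

theorem pts_le : pts hq hK ≤ G1 := inf_le_left

theorem nW_pts (L : List (Fin 4)) : ((tw hq hK).nW L : GL chevE6.Idx K) ∈ pts hq hK :=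
  (mem_pts hq hK).mpr ⟨(tw hq hK).nW_mem L, gmap_wN S _ _⟩

/-- The action of a word on a root subgroup. -/
theorem nW_conj (L : List (Fin 4)) {r : ℕ} (hr : r < 72) : ∃ c : K, (c = 1 ∨ c = -1) ∧
    ∀ t : K, ((tw hq hK).nW L : GL chevE6.Idx K) * Sys.xG S K r t *
      ((tw hq hK).nW L : GL chevE6.Idx K)⁻¹ = Sys.xG S K (wL chevE6 (wdN L) r) (c * t) := by
  obtain ⟨c, hc, h⟩ := (tw hq hK).ρ_eta L (s := ⟨r, hr⟩)
  refine ⟨c, hc, fun t => ?_⟩
  have e : ((tw hq hK).wW L ⟨r, hr⟩ : ℕ) = wL chevE6 (wdN L) r := wperm_flat L ⟨r, hr⟩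
  rw [← e]
  exact h t

theorem phi_pm {c : K} (hc : c = 1 ∨ c = -1) : phi hq hK c = c := by
  rcases hc with rfl | rfl <;> simp

/-- The fixed element of the orbit of a root. -/
noncomputable def orb (a : ℕ) (t : K) : GL chevE6.Idx K :=
  if pE a = a then Sys.xG S K a t
  else Sys.xG S K a t * Sys.xG S K (pE a) ((sgE a : K) * phi hq hK t)

theorem sigma_orb {a : ℕ} (ha : a < 72) {t : K} (ht : pE a = a → phi hq hK t = t) :
    sigma hq hK (orb hq hK a t) = orb hq hK a t := by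
  rw [orb]
  split_ifs with h
  · rw [sigma_xG hq hK ha, h, fix_sign a ha h, Int.cast_one, one_mul, ht h]
  · obtain ⟨h1, h2, h3, -⟩ := rho_facts a ha
    obtain ⟨h4, h5⟩ := rho_orth a ha h
    rw [map_mul, sigma_xG hq hK ha, sigma_xG hq hK h1, h2, map_mul, sg_phi hq hK,
      phi_phi hq hK, ← mul_assoc ((sgE (pE a) : K)), ← Int.cast_mul, h3, Int.cast_one, one_mul]
    exact (Sys.xG_commute S K ha h1 h h5 h4 _ _).eq.symm

theorem orb_mem_U {a : ℕ} (ha : a < 72) (hp : 36 ≤ a) (t : K) :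
    orb hq hK a t ∈ chevE6.posUnipotent K := by
  obtain ⟨h1, -, -, h4⟩ := rho_facts a ha
  rw [orb]
  split_ifs
  · exact mem_U hp ha t
  · exact mul_mem (mem_U hp ha _) (mem_U (h4 hp) h1 _)

theorem orb_G1 {a : ℕ} (ha : a < 72) (hp : 36 ≤ a) {t : K}
    (ht : pE a = a → phi hq hK t = t) : orb hq hK a t ∈ G1 :=
  mem_G1_of_fixed hq hK (orb_mem_U hq hK ha hp t) (sigma_orb hq hK ha ht)

theorem gmap_orb (a : ℕ) {t : K} (ht : phi hq hK t = t) :
    gmap chevE6 (phi hq hK) (orb hq hK a t) = orb hq hK a t := by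
  rw [orb]
  split_ifs
  · rw [gmap_xG S, ht]
  · rw [map_mul, gmap_xG S, gmap_xG S, map_mul, sg_phi hq hK, ht, ht]

theorem orb_pts {a : ℕ} (ha : a < 72) (hp : 36 ≤ a) {t : K} (ht : phi hq hK t = t) :
    orb hq hK a t ∈ pts hq hK :=
  (mem_pts hq hK).mpr ⟨orb_G1 hq hK ha hp fun _ => ht, gmap_orb hq hK a ht⟩

theorem root_pts {r : ℕ} (hr : r < 72) (hf : pE r = r) {t : K} (ht : phi hq hK t = t) :
    Sys.xG S K r t ∈ pts hq hK := by
  have hpos : ∀ s, s < 72 → 36 ≤ s → pE s = s → ∀ u, phi hq hK u = u →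
      Sys.xG S K s u ∈ pts hq hK := fun s hs hp hfs u hu => by
    have := orb_pts hq hK hs hp hu
    rwa [orb, if_pos hfs] at this
  rcases le_or_gt 36 r with hp | hp
  · exact hpos r hr hp hf t ht
  set s := wL chevE6 (wdN longWord) r
  have hs : s < 72 := wL_lt72 _ hr
  have hsp : 36 ≤ s :=
    by
      show 36 ≤ wL chevE6 (wdN longWord) r
      rw [long_eq r hr]
      exact (by decide +kernel : ∀ r < 36, 36 ≤ 71 - pE r) r hp
  obtain ⟨c, hc, hct⟩ := nW_conj hq hK longWord hs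
  have hcc : c * c = 1 := by rcases hc with rfl | rfl <;> simp
  have h1 := hpos s hs hsp (long_fixed r hr hf) (c * t) (by rw [map_mul, phi_pm hq hK hc, ht])
  have h2 := mul_mem (mul_mem (nW_pts hq hK longWord) h1) (inv_mem (nW_pts hq hK longWord))
  rw [hct, long_invol r hr, ← mul_assoc, hcc, one_mul] at h2
  exact h2

theorem orb_add {a : ℕ} (ha : a < 72) (t u : K) :
    orb hq hK a t * orb hq hK a u = orb hq hK a (t + u) := by
  simp only [orb]
  split_ifs with h
  · exact Sys.xG_add S K a t u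
  · obtain ⟨h1, -⟩ := rho_facts a ha
    obtain ⟨h4, h5⟩ := rho_orth a ha h
    have hc : Commute (Sys.xG S K a u) (Sys.xG S K (pE a) ((sgE a : K) * phi hq hK t)) :=
      Sys.xG_commute S K ha h1 h h5 h4 _ _
    rw [map_add, mul_add, ← Sys.xG_add, ← Sys.xG_add]
    simp only [mul_assoc]
    rw [← mul_assoc _ (Sys.xG S K a u), ← hc.eq, mul_assoc]

theorem orb_inv {a : ℕ} (ha : a < 72) (t : K) :
    (orb hq hK a t)⁻¹ = orb hq hK a (-t) := by
  refine inv_eq_of_mul_eq_one_right ?_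
  rw [orb_add hq hK ha, add_neg_cancel, orb]
  split_ifs <;> simp [Sys.xG_zero]

theorem lead_sigma {a : ℕ} (ha : a < 72) (hp : 36 ≤ a) {g : GL chevE6.Idx K} {d : K}
    (h : IsLead S a g d) : IsLead S (pE a) (sigma hq hK g) ((sgE a : K) * phi hq hK d) := by
  refine lead_map S ha hp (sigma hq hK) (sigma_xG hq hK ha d) (fun s hs h1 h2 t => ?_) h
  obtain ⟨e1, e2, -, e4⟩ := rho_facts s h2
  rw [sigma_xG hq hK h2]
  refine Sys.xG_mem_uSub S K (P := leadSet S (pE a)) ⟨?_, fun e => hs.2 ?_⟩ (e4 h1) e1 _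
  · rw [rho_height a ha, rho_height s h2]
    exact hs.1
  · rw [← e2, e, (rho_facts a ha).2.1]

theorem lead_rho {a : ℕ} (ha : a < 72) (hp : 36 ≤ a) {g : GL chevE6.Idx K} (hg : g ∈ G1) {d : K}
    (h : IsLead S a g d) : IsLead S (pE a) g ((sgE a : K) * phi hq hK d) := by
  have := lead_sigma hq hK ha hp h
  rwa [sigma_G1 hq hK hg] at this

/-- The coordinate at a fixed root of an element of the group is fixed. -/
theorem lead_fixed {a : ℕ} (ha : a < 72) (hp : 36 ≤ a) (hf : pE a = a) {g : GL chevE6.Idx K}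
    (hg : g ∈ G1) {d : K} (h : IsLead S a g d) : phi hq hK d = d := by
  have h1 := lead_rho hq hK ha hp hg h
  rw [hf, fix_sign a ha hf, Int.cast_one, one_mul] at h1
  exact lead_unique S ha hp h1 h

theorem lead_orb {a b : ℕ} (ha : a < 72) (hp : 36 ≤ a) (hb : b < 72) (hbp : 36 ≤ b)
    (hh : Sys.height S a = Sys.height S b) (t : K) :
    IsLead S b (orb hq hK a t) (if a = b then t
      else if pE a = b then (sgE a : K) * phi hq hK t else 0) := by
  obtain ⟨h1, -, -, h4⟩ := rho_facts a ha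
  rw [orb]
  by_cases h : pE a = a
  · rw [if_pos h]
    have := lead_xG S hb hbp ha hp hh.ge t
    split_ifs at this ⊢ with e e' <;> first | exact this | exact absurd (h.symm.trans e') e
  · rw [if_neg h]
    have := lead_mul S hb hbp (lead_xG S hb hbp ha hp hh.ge t)
      (lead_xG S hb hbp h1 (h4 hp) (by rw [rho_height a ha, hh]) ((sgE a : K) * phi hq hK t))
    convert this using 1
    split_ifs with e e' <;> first | exact absurd (e'.trans e.symm) h | simp

theorem orb_mem_cut {a : ℕ} (ha : a < 72) (hp : 36 ≤ a) {h : ℤ} (hh : h ≤ Sys.height S a)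
    (t : K) : orb hq hK a t ∈ uSub chevE6 K (Sys.cut S h) := by
  obtain ⟨h1, -, -, h4⟩ := rho_facts a ha
  rw [orb]
  split_ifs
  · exact Sys.xG_mem_uSub S K hh hp ha t
  · exact mul_mem (Sys.xG_mem_uSub S K hh hp ha t)
      (Sys.xG_mem_uSub S K (show h ≤ Sys.height S (pE a) by rw [rho_height a ha]; exact hh)
        (h4 hp) h1 _)

/-- An element with fixed coordinates at the lowest level is a point times one of the next cut. -/
theorem peel {h : ℤ} {g : GL chevE6.Idx K} (hgG : g ∈ G1)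
    (hg : g ∈ uSub chevE6 K (Sys.cut S h))
    (hL : ∀ a ∈ level S h, ∃ d : K, phi hq hK d = d ∧ IsLead S a g d) :
    ∃ m ∈ pts hq hK, m ∈ uSub chevE6 K (Sys.cut S h) ∧
      m⁻¹ * g ∈ uSub chevE6 K (Sys.cut S (h + 1)) := by
  suffices ∀ l : List ℕ, ∀ g : GL chevE6.Idx K, g ∈ G1 → g ∈ uSub chevE6 K (Sys.cut S h) →
      (∀ a ∈ level S h, ∃ d : K, phi hq hK d = d ∧ IsLead S a g d ∧ (a ∉ l → d = 0)) →
      ∃ m ∈ pts hq hK, m ∈ uSub chevE6 K (Sys.cut S h) ∧
        m⁻¹ * g ∈ uSub chevE6 K (Sys.cut S (h + 1)) from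
    this (level S h).toList g hgG hg fun a ha => by
      obtain ⟨d, h1, h2⟩ := hL a ha
      exact ⟨d, h1, h2, fun hn => absurd (Finset.mem_toList.mpr ha) hn⟩
  intro l
  induction l with
  | nil =>
    intro g _ hg hl
    refine ⟨1, one_mem _, one_mem _, ?_⟩
    rw [inv_one, one_mul]
    refine cut_succ S hg fun a ha => ?_
    obtain ⟨d, -, h2, h3⟩ := hl a ha
    rw [← h3 List.not_mem_nil]
    exact h2
  | cons a l ih =>
    intro g hgG hg hl
    by_cases hal : a ∈ level S h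
    swap
    · refine ih g hgG hg fun b hb => ?_
      obtain ⟨d, h1, h2, h3⟩ := hl b hb
      refine ⟨d, h1, h2, fun hn => h3 ?_⟩
      simp only [List.mem_cons, not_or]
      exact ⟨fun e => hal (e ▸ hb), hn⟩
    obtain ⟨d, hd, hda, -⟩ := hl a hal
    obtain ⟨ha, hp, hh⟩ := (mem_level S).mp hal
    have hoP := orb_pts hq hK ha hp hd
    have hoC := orb_mem_cut hq hK ha hp hh.ge d
    obtain ⟨m, hm, hmC, hm'⟩ := ih ((orb hq hK a d)⁻¹ * g)
      (mul_mem (inv_mem (pts_le hq hK hoP)) hgG) (mul_mem (inv_mem hoC) hg) fun b hb => by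
      obtain ⟨e, he, heb, he0⟩ := hl b hb
      obtain ⟨hb1, hb2, hb3⟩ := (mem_level S).mp hb
      refine ⟨_, ?_, lead_mul S hb1 hb2 (lead_inv S hb1 hb2
        (lead_orb hq hK ha hp hb1 hb2 (hh.trans hb3.symm) d)) heb, fun hn => ?_⟩
      · split_ifs <;> simp [he, hd, sg_phi hq hK]
      split_ifs with e1 e2
      · subst e1
        rw [lead_unique S hb1 hb2 heb hda, neg_add_cancel]
      · subst e2
        rw [lead_unique S hb1 hb2 heb (lead_rho hq hK ha hp hgG hda), neg_add_cancel]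
      · rw [he0 (by simp only [List.mem_cons, not_or]; exact ⟨fun e => e1 e.symm, hn⟩)]
        simp
    refine ⟨orb hq hK a d * m, mul_mem hoP hm, mul_mem hoC hmC, ?_⟩
    rwa [mul_inv_rev, mul_assoc]

end CfsgLib.TwistSub.E6
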