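import Cfsg.Agent.TwistSub.E6Uni
import Cfsg.Agent.ChevSubfield.LargeRoot

/-!
An overgroup of the points of `²E₆(q)` over the field with `q` elements with a further element at the
highest short root is the whole group.
-/

set_option autoImplicit false
set_option linter.unusedSectionVars false

namespace CfsgLib.TwistSub.E6

open Cfsg.Lie CfsgLib.Chevalley CfsgLib.TwistedLie CfsgLib.TwistedLie.E6 CfsgLib.ChevField
  CfsgLib.ChevSubfield

local notation "S" => sysE6

theorem pair_words :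
    wL chevE6 (wdN [2, 1, 0, 2, 1, 2, 3, 2]) 66 = 56 ∧ wL chevE6 (wdN [2, 1, 0, 2, 1, 2, 3, 2]) 68 = 36 ∧
      wL chevE6 (wdN [1, 0, 2, 3, 2, 1, 2, 3]) 66 = 42 ∧
      wL chevE6 (wdN [1, 0, 2, 3, 2, 1, 2, 3]) 68 = 37 := by decide +kernel

theorem scale_facts : chevE6.neg 69 = 2 ∧ pE 69 = 69 ∧ pE 2 = 2 ∧
    chevE6.pairing 69 66 = 1 ∧ chevE6.pairing 69 68 = 1 := by decide +kernel

variable {K : Type*} [Field K] [Fintype K] {q : ℕ}

local notation "G1" => chevE6.genSubgroup K (e6Words K q)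

variable (hq : IsPrimePow q) (hK : Fintype.card K = q ^ 2)
include hq hK

theorem orb_scale {H : Subgroup (GL chevE6.Idx K)} (hM : pts hq hK ≤ H) {u f : K}
    (hu : orb hq hK 66 u ∈ H) (hf : phi hq hK f = f) : orb hq hK 66 (f * u) ∈ H := by
  rcases eq_or_ne f 0 with rfl | hf0
  · rw [zero_mul]
    exact hM (orb_pts hq hK (by decide) (by decide) (map_zero _))
  obtain ⟨h2, h69, h2f, p66, p68⟩ := scale_facts
  have hn : ∀ c : K, phi hq hK c = c → Sys.nG S K 69 c ∈ H := fun c hc => by
    rw [Sys.nG_eq, h2]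
    exact mul_mem (mul_mem (hM (root_pts hq hK (by decide) h69 hc))
      (hM (root_pts hq hK (by decide) h2f (by rw [map_neg, map_inv₀, hc]))))
      (hM (root_pts hq hK (by decide) h69 hc))
  set a := Units.mk0 f hf0
  set n := Sys.nG S K 69 (a : K) * Sys.nG S K 69 (-1) with hndef
  have hnH : n ∈ H := mul_mem (hn _ hf) (hn _ (by rw [map_neg, map_one]))
  have := mul_mem (mul_mem hnH hu) (inv_mem hnH)
  rw [orb, short_top.2.2.1, if_neg (by decide), short_top.2.2.2, Int.cast_one, one_mul,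
    show n * (Sys.xG S K 66 u * Sys.xG S K 68 (phi hq hK u)) * n⁻¹ =
      n * Sys.xG S K 66 u * n⁻¹ * (n * Sys.xG S K 68 (phi hq hK u) * n⁻¹) by group, hndef,
    Sys.hRoot_conj S K (by decide) (by decide) a u,
    Sys.hRoot_conj S K (by decide) (by decide) a (phi hq hK u), p66, p68, zpow_one] at this
  rw [orb, short_top.2.2.1, if_neg (by decide), short_top.2.2.2, Int.cast_one, one_mul, map_mul, hf]
  exact this

/-- All elements at the highest short root, from one outside the points. -/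
theorem orb_all {H : Subgroup (GL chevE6.Idx K)} (hM : pts hq hK ≤ H) {t₀ : K}
    (h0 : orb hq hK 66 t₀ ∈ H) (ht₀ : phi hq hK t₀ ≠ t₀) (u : K) : orb hq hK 66 u ∈ H := by
  classical
  set A := fixedAdd K (phi hq hK)
  let f : ↥A × ↥A → K := fun x => (x.1 : K) + (x.2 : K) * t₀
  have hinj : Function.Injective f := by
    rintro ⟨⟨a, ha⟩, ⟨b, hb⟩⟩ ⟨⟨a', ha'⟩, ⟨b', hb'⟩⟩ h
    simp only [f] at h
    by_cases hbb : b = b'
    · subst hbb
      simp only [add_left_inj] at h
      subst h
      rfl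
    exfalso
    apply ht₀
    have hne : b - b' ≠ 0 := sub_ne_zero.mpr hbb
    have e : t₀ = (a' - a) / (b - b') := by
      rw [eq_div_iff hne]
      linear_combination h
    rw [e, map_div₀, map_sub, map_sub, (mem_fixedAdd K).mp ha, (mem_fixedAdd K).mp ha', (mem_fixedAdd K).mp hb,
      (mem_fixedAdd K).mp hb']
  have hbij : Function.Bijective f := by
    refine (Nat.bijective_iff_injective_and_card f).mpr ⟨hinj, ?_⟩
    rw [Nat.card_prod, card_fixedAdd K hq hK (phi_apply hq hK), Nat.card_eq_fintype_card, hK, sq]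
  obtain ⟨⟨⟨a, ha⟩, ⟨b, hb⟩⟩, rfl⟩ := hbij.2 u
  simp only [f]
  rw [← orb_add hq hK (show (66 : ℕ) < 72 by decide)]
  exact mul_mem (hM (orb_pts hq hK (by decide) (by decide) ha)) (orb_scale hq hK hM h0 hb)

/-- An element of the group on an orbit is determined by one coordinate. -/
theorem conj_orb {L : List (Fin 4)} {a b : ℕ} (hL : wL chevE6 (wdN L) 66 = a)
    (hL' : wL chevE6 (wdN L) 68 = b) (ha : a < 72) (hp : 36 ≤ a) (hb : pE a = b) (hne : b ≠ a)
    (hh : Sys.height S b = Sys.height S a) {H : Subgroup (GL chevE6.Idx K)} (hM : pts hq hK ≤ H)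
    (hall : ∀ u, orb hq hK 66 u ∈ H) (v : K) : orb hq hK a v ∈ H := by
  obtain ⟨h1, -, -, h4⟩ := rho_facts a ha
  rw [hb] at h1 h4
  obtain ⟨c, hc, hct⟩ := nW_conj hq hK L (show 66 < 72 by decide)
  obtain ⟨c', -, hct'⟩ := nW_conj hq hK L (show 68 < 72 by decide)
  rw [hL] at hct
  rw [hL'] at hct'
  have hcc : c * c = 1 := by rcases hc with rfl | rfl <;> simp
  set n := ((tw hq hK).nW L : GL chevE6.Idx K)
  have hn := nW_pts hq hK L
  have he : n * orb hq hK 66 (c * v) * n⁻¹ =
      Sys.xG S K a v * Sys.xG S K b (c' * phi hq hK (c * v)) := by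
    rw [orb, short_top.2.2.1, if_neg (by decide), short_top.2.2.2, Int.cast_one, one_mul,
      show n * (Sys.xG S K 66 (c * v) * Sys.xG S K 68 (phi hq hK (c * v))) * n⁻¹ =
        n * Sys.xG S K 66 (c * v) * n⁻¹ * (n * Sys.xG S K 68 (phi hq hK (c * v)) * n⁻¹) by group,
      hct, hct', ← mul_assoc c c, hcc, one_mul]
  have hmem := mul_mem (mul_mem (hM hn) (hall (c * v))) (inv_mem (hM hn))
  rw [he] at hmem
  have hG : Sys.xG S K a v * Sys.xG S K b (c' * phi hq hK (c * v)) ∈ G1 := by
    rw [← he]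
    exact mul_mem (mul_mem (pts_le hq hK hn)
      (orb_G1 hq hK (by decide) (by decide) fun h => absurd h (by rw [short_top.2.2.1]; decide)))
      (inv_mem (pts_le hq hK hn))
  have hla := lead_mul S ha hp (lead_self S ha hp v)
    (lead_xG S ha hp h1 (h4 hp) hh.ge (c' * phi hq hK (c * v)))
  rw [if_neg hne, add_zero] at hla
  have hlb := lead_mul S h1 (h4 hp) (lead_xG S h1 (h4 hp) ha hp hh.le v)
    (lead_self S h1 (h4 hp) (c' * phi hq hK (c * v)))
  rw [if_neg hne.symm, zero_add] at hlb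
  have h2 := lead_rho hq hK ha hp hG hla
  rw [hb] at h2
  rw [lead_unique S h1 (h4 hp) hlb h2] at hmem
  rw [orb, hb, if_neg hne]
  exact hmem

/-- With a further element at the highest short root the overgroup is everything. -/
theorem eq_of_large {H : Subgroup (GL chevE6.Idx K)} (hM : pts hq hK ≤ H) (hHG : H ≤ G1) {t₀ : K}
    (h0 : orb hq hK 66 t₀ ∈ H) (ht₀ : phi hq hK t₀ ≠ t₀) : H = G1 := by
  refine le_antisymm hHG (gen_le S K ?_)
  have hall := orb_all hq hK hM h0 ht₀
  obtain ⟨w1, w2, w3, w4⟩ := pair_words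
  obtain ⟨s0, s1, s2, s3, s4, s5⟩ := simple_eq
  obtain ⟨m0, m1, m2, m3, m4, m5⟩ := neg_eq
  have p05 : ∀ t, Folded.P S (phi hq hK) 0 5 t ∈ H := fun t => by
    have := conj_orb hq hK w1 w2 (by decide) (by decide) (by decide +kernel) (by decide)
      (by decide +kernel) hM hall t
    rw [orb, show pE 56 = 36 by decide +kernel, if_neg (by decide),
      show sgE 56 = 1 by decide +kernel, Int.cast_one, one_mul] at this
    rw [Folded.P, s0, s5]
    exact this
  have p24 : ∀ t, Folded.P S (phi hq hK) 2 4 t ∈ H := fun t => by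
    have := conj_orb hq hK w3 w4 (by decide) (by decide) (by decide +kernel) (by decide)
      (by decide +kernel) hM hall t
    rw [orb, show pE 42 = 37 by decide +kernel, if_neg (by decide),
      show sgE 42 = 1 by decide +kernel, Int.cast_one, one_mul] at this
    rw [Folded.P, s2, s4]
    exact this
  have hc : ∀ i : Fin 4, ∀ x ∈ H, (Sys.wN S K (blkF i) : GL chevE6.Idx K) * x *
      (Sys.wN S K (blkF i) : GL chevE6.Idx K)⁻¹ ∈ H := fun i x hx => by
    have hn : (Sys.wN S K (blkF i) : GL chevE6.Idx K) ∈ H := by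
      have := hM (nW_pts hq hK [i])
      rwa [(tw hq hK).nW_single] at this
    exact mul_mem (mul_mem hn hx) (inv_mem hn)
  rintro w (⟨t, ht, r, hr, rfl⟩ | ⟨t, rs, hrs, rfl⟩)
  · rw [← phi_apply hq hK] at ht
    simp only [e6p2, e6m2, e6p4, e6m4, List.mem_cons, List.not_mem_nil, or_false] at hr
    rw [TwistedLie.wG_single]
    rcases hr with rfl | rfl | rfl | rfl <;>
      exact hM (root_pts hq hK (by decide) (by decide +kernel) ht)
  · simp only [e6p1, e6p6, e6m1, e6m6, e6p3, e6p5, e6m3, e6m5, List.mem_cons, List.not_mem_nil,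
      or_false] at hrs
    rcases hrs with rfl | rfl | rfl | rfl
    · rw [← s0, ← s5, ← P_eq hq hK]
      exact p05 t
    · have h := hc 3 _ (p05 (-t))
      rw [n_eq hq hK, show blkN 3 = [0, 5] from rfl, Folded.two_conj S _ two05, neg_neg] at h
      rw [← m0, ← m5, ← s0, ← s5, ← N_eq hq hK]
      exact h
    · rw [← s2, ← s4, ← P_eq hq hK]
      exact p24 t
    · have h := hc 2 _ (p24 (-t))
      rw [n_eq hq hK, show blkN 2 = [2, 4] from rfl, Folded.two_conj S _ two24, neg_neg] at h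
      rw [← m2, ← m4, ← s2, ← s4, ← N_eq hq hK]
      exact h

end CfsgLib.TwistSub.E6
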