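import Cfsg.Agent.TwistSub.E6Uni

/-!
`²E₆(q)` on the highest root: conjugates of the highest root element and coordinates of the images
of root vectors.
-/

set_option autoImplicit false
set_option linter.unusedSectionVars false

namespace CfsgLib.TwistSub.E6

open Cfsg.Lie CfsgLib.Chevalley CfsgLib.TwistedLie CfsgLib.TwistedLie.E6 CfsgLib.ChevField
  CfsgLib.ChevSubfield
open scoped Matrix

local notation "S" => sysE6

theorem highE6 : Sys.HighFacts sysE6 :=
  ⟨by decide, by decide, by decide +kernel, by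
    have h : ∀ k < 72, ∀ m < 6, sysE6.vec m k ≤ sysE6.vec m 71 := by decide +kernel
    exact h⟩

theorem top_rho : pE 71 = 71 := by decide +kernel

/-- A word sending a root fixed by the symmetry to the lowest root. -/
def lowW : ℕ → List (Fin 4)
  | 1 => [0]
  | 2 => [0, 1]
  | 6 => [0, 1, 2]
  | 8 => [0, 1, 2, 1]
  | 18 => [0, 1, 2, 3]
  | 11 => [0, 1, 2, 1, 0]
  | 20 => [0, 1, 2, 3, 1]
  | 27 => [0, 1, 2, 3, 1, 0]
  | 24 => [0, 1, 2, 3, 1, 2]
  | 32 => [0, 1, 2, 3, 1, 2, 0]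
  | 25 => [0, 1, 2, 3, 1, 2, 1]
  | 46 => [0, 1, 2, 3, 1, 2, 1, 0]
  | 39 => [0, 1, 2, 3, 1, 2, 0, 1]
  | 47 => [0, 1, 2, 3, 1, 2, 0, 1, 0]
  | 44 => [0, 1, 2, 3, 1, 2, 0, 1, 2]
  | 51 => [0, 1, 2, 3, 1, 2, 0, 1, 2, 0]
  | 60 => [0, 1, 2, 3, 1, 2, 0, 1, 2, 3]
  | 63 => [0, 1, 2, 3, 1, 2, 0, 1, 2, 3, 0]
  | 53 => [0, 1, 2, 3, 1, 2, 0, 1, 2, 0, 1]
  | 65 => [0, 1, 2, 3, 1, 2, 0, 1, 2, 3, 0, 1]
  | 69 => [0, 1, 2, 3, 1, 2, 0, 1, 2, 3, 0, 1, 2]
  | 70 => [0, 1, 2, 3, 1, 2, 0, 1, 2, 3, 0, 1, 2, 1]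
  | 71 => [0, 1, 2, 3, 1, 2, 0, 1, 2, 3, 0, 1, 2, 1, 0]
  | _ => []

/-- A word sending the highest root to a root fixed by the symmetry. -/
def topW (r : ℕ) : List (Fin 4) := (lowW r).reverse ++ longWord

theorem lowW_spec : ∀ r < 72, pE r = r → wL chevE6 (wdN (lowW r)) r = 0 := by decide +kernel

theorem topW_spec : ∀ r < 72, pE r = r → wL chevE6 (wdN (topW r)) 71 = r := by decide +kernel

variable {K : Type*} [Field K] [Fintype K] {q : ℕ}

local notation "G1" => chevE6.genSubgroup K (e6Words K q)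

theorem pos_fix71 {u : GL chevE6.Idx K} (hu : u ∈ chevE6.posUnipotent K) :
    (u : Matrix chevE6.Idx chevE6.Idx K) *ᵥ evec chevE6 K 71 = evec chevE6 K 71 := by
  have hh : (71 : ℕ) < chevE6.nroots := by decide
  rw [evec_eq_single hh]
  funext row
  rw [Matrix.mulVec_single_one, Matrix.col_apply]
  by_contra hne
  have h := (Sys.posUnipotent_le S K hu).1 row (Sum.inr ⟨71, hh⟩) (by
    rw [Matrix.sub_apply, Matrix.one_apply]
    intro h0
    apply hne
    rw [sub_eq_zero] at h0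
    rw [h0, Pi.single_apply])
  rcases row with i | s
  · simp only [pos] at h
    norm_num [show chevE6.nroots = 72 from rfl] at h
  · simp only [pos] at h
    have := s.isLt
    norm_num [show chevE6.nroots = 72 from rfl] at h this
    split_ifs at h <;> omega

/-- The diagonal coordinate of a unipotent element is one, the others are higher. -/
theorem crd_pos {u : GL chevE6.Idx K} (hu : u ∈ chevE6.posUnipotent K) {r : ℕ} (hr : r < 72) :
    crd chevE6 ((u : Matrix chevE6.Idx chevE6.Idx K) *ᵥ evec chevE6 K r) r = 1 ∧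
      ∀ s, crd chevE6 ((u : Matrix chevE6.Idx chevE6.Idx K) *ᵥ evec chevE6 K r) s ≠ 0 → r ≤ s := by
  refine ⟨?_, fun s hs => ?_⟩
  · rw [crd_mulVec_evec hr hr]
    by_contra hne
    have := (Sys.posUnipotent_le S K hu).1 (Sum.inr ⟨r, hr⟩) (Sum.inr ⟨r, hr⟩) (by
      rw [Matrix.sub_apply, Matrix.one_apply_eq]; exact sub_ne_zero.mpr hne)
    omega
  by_cases hs' : s < chevE6.nroots
  swap
  · exact absurd (by rw [crd, dif_neg hs']) hs
  rw [crd_mulVec_evec hs' hr] at hs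
  by_cases he : s = r
  · exact he.ge
  have h := (Sys.posUnipotent_le S K hu).1 (Sum.inr ⟨s, hs'⟩) (Sum.inr ⟨r, hr⟩) (by
    rw [Matrix.sub_apply, Matrix.one_apply_ne fun e => he (congrArg Fin.val (Sum.inr.inj e)),
      sub_zero]
    exact hs)
  simp only [pos] at h
  norm_num [show chevE6.nroots = 72 from rfl] at h
  split_ifs at h <;> omega

variable (hq : IsPrimePow q) (hK : Fintype.card K = q ^ 2)
include hq hK

/-- The coordinates of the image of a vector under a word. -/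
theorem crd_nW (L : List (Fin 4)) {s : ℕ} (hs : s < 72) : ∃ e : K, (e = 1 ∨ e = -1) ∧
    ∀ x : chevE6.Idx → K, crd chevE6 ((((tw hq hK).nW L : GL chevE6.Idx K) :
      Matrix chevE6.Idx chevE6.Idx K) *ᵥ x) (wL chevE6 (wdN L) s) = e * crd chevE6 x s := by
  set n := ((tw hq hK).nW L : GL chevE6.Idx K) with hn
  obtain ⟨τ, hτ⟩ := Sys.exists_mono S K ((tw hq hK).nW L).2
  have hact : ∀ u : Fin chevE6.nroots, ∃ e : K, (e = 1 ∨ e = -1) ∧
      (n : Matrix chevE6.Idx chevE6.Idx K) *ᵥ evec chevE6 K u =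
        e • evec chevE6 K (wL chevE6 (wdN L) (u : ℕ)) := fun u => by
    obtain ⟨e, he, -, h⟩ := Sys.wN_act S K (L.flatMap blkF) u
    refine ⟨e, he, ?_⟩
    rw [← wperm_flat L u]
    exact h
  have hw := wL_lt72 L hs
  obtain ⟨e, he, hes⟩ := hact ⟨s, hs⟩
  refine ⟨e, he, fun x => ?_⟩
  have hw' : wL chevE6 (wdN L) s < chevE6.nroots := hw
  have hs' : s < chevE6.nroots := hs
  rw [crd_mulVec hw', Finset.sum_eq_single (Sum.inr ⟨s, hs'⟩)]
  · have h1 := crd_mulVec_evec (u := wL chevE6 (wdN L) s) hw' hs'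
      (n : Matrix chevE6.Idx chevE6.Idx K)
    rw [hes, crd_smul, crd_evec hw', if_pos rfl, mul_one] at h1
    rw [← h1, crd, dif_pos hs']
  · intro col _ hcol
    rcases col with j | u
    · rw [hτ.2.2, zero_mul]
    · obtain ⟨e', -, he'⟩ := hact u
      have h1 := crd_mulVec_evec (u := wL chevE6 (wdN L) s) hw' u.isLt
        (n : Matrix chevE6.Idx chevE6.Idx K)
      rw [he', crd_smul, crd_evec hw', if_neg, mul_zero] at h1
      · rw [Fin.eta] at h1
        rw [← h1, zero_mul]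
      · intro ew
        have h2 : (tw hq hK).wW L ⟨s, hs'⟩ = (tw hq hK).wW L u := Fin.ext (by
          show (Sys.wperm S (L.flatMap blkF) ⟨s, hs'⟩ : ℕ) = Sys.wperm S (L.flatMap blkF) u
          rw [wperm_flat, wperm_flat]
          exact ew)
        exact hcol (congrArg Sum.inr ((Equiv.injective _ h2).symm))
  · exact fun h => absurd (Finset.mem_univ _) h

/-- The conjugate of the highest root element and the image of the highest root vector. -/
theorem cover_top {g : GL chevE6.Idx K} (hg : g ∈ G1) :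
    ∃ v ∈ chevE6.posUnipotent K ⊓ G1, ∃ k < 72, ∃ c : K, pE k = k ∧ c ≠ 0 ∧ phi hq hK c = c ∧
      g * Sys.xG S K 71 1 * g⁻¹ = v * Sys.xG S K k c * v⁻¹ ∧
      (g : Matrix chevE6.Idx chevE6.Idx K) *ᵥ evec chevE6 K 71 =
        c • ((v : Matrix chevE6.Idx chevE6.Idx K) *ᵥ evec chevE6 K k) := by
  obtain ⟨b, hb, L, b', hb', rfl⟩ := (tw hq hK).cover hg
  obtain ⟨v', hv', t', ht', rfl⟩ := (tw hq hK).mem_B1.mp hb'
  obtain ⟨v, hv, t, ht, rfl⟩ := (tw hq hK).mem_B1.mp hb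
  have hd : ∀ x ∈ (tw hq hK).T, ∃ a, tor chevE6 K a = x := fun x hx => by
    have := (tw hq hK).T_le hx
    rw [Sys.diagonal_eq S] at this
    exact this
  obtain ⟨a', rfl⟩ := hd t' ht'
  obtain ⟨a, rfl⟩ := hd t ht
  have h71 : (71 : ℕ) < chevE6.nroots := by decide
  set n := (tw hq hK).nW L
  obtain ⟨c₁, hc₁, h1, h2⟩ := Sys.monomial_act S K n ⟨71, h71⟩
  set k := Sys.perm S K n ⟨71, h71⟩ with hk
  set c := (torusVal chevE6 a' 71 : K) * c₁ * (torusVal chevE6 a (k : ℕ) : K) with hc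
  have hkf : pE (k : ℕ) = k := by
    have e0 : k = (tw hq hK).wW L ⟨71, h71⟩ := by rw [hk, (tw hq hK).perm_nW]
    have e1 := (tw hq hK).wW_ρ L ⟨71, h71⟩
    have e2 : (tw hq hK).ρ ⟨71, h71⟩ = ⟨71, h71⟩ := Fin.ext top_rho
    rw [e2, ← e0] at e1
    exact (congrArg Fin.val e1).symm
  have hv'U : ∀ z, Commute (Sys.xG S K 71 z) v' := fun z =>
    Sys.top_commute_pos S K highE6 hv'.1 z
  have he : v * tor chevE6 K a * (n : GL chevE6.Idx K) * (v' * tor chevE6 K a') *
      Sys.xG S K 71 1 * (v * tor chevE6 K a * (n : GL chevE6.Idx K) * (v' * tor chevE6 K a'))⁻¹ =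
      v * Sys.xG S K k c * v⁻¹ := by
    set nn := (n : GL chevE6.Idx K) with hnn
    calc _ = v * (tor chevE6 K a * (nn * (v' * (tor chevE6 K a' * Sys.xG S K 71 1 *
          (tor chevE6 K a')⁻¹) * v'⁻¹) * nn⁻¹) * (tor chevE6 K a)⁻¹) * v⁻¹ := by group
      _ = v * (tor chevE6 K a * (nn * Sys.xG S K 71 (torusVal chevE6 a' 71 : K) * nn⁻¹) *
          (tor chevE6 K a)⁻¹) * v⁻¹ := by
        rw [Sys.tor_conj S K a' h71, mul_one, ← (hv'U _).eq, mul_inv_cancel_right]
      _ = _ := by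
        rw [hnn, h1, Sys.tor_conj S K a k.isLt, hc]
        congr 3
        ring
  refine ⟨v, hv, k, k.isLt, c, hkf, mul_ne_zero (mul_ne_zero (Units.ne_zero _) hc₁)
    (Units.ne_zero _), ?_, he, ?_⟩
  · refine fixed_param hq hK k.isLt hkf ?_
    have hgG := hg
    have h := mul_mem (mul_mem hgG (pts_le hq hK (root_pts hq hK h71 top_rho (map_one _))))
      (inv_mem hgG)
    rw [he] at h
    have := mul_mem (mul_mem (inv_mem (Subgroup.mem_inf.mp hv).2) h) (Subgroup.mem_inf.mp hv).2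
    simp only [mul_assoc, inv_mul_cancel, inv_mul_cancel_left, mul_one] at this
    exact this
  · simp only [Units.val_mul, ← Matrix.mulVec_mulVec]
    rw [Sys.tor_evec S K a' h71, Matrix.mulVec_smul, pos_fix71 hv'.1, Matrix.mulVec_smul, h2,
      smul_smul, Matrix.mulVec_smul, Sys.tor_evec S K a k.isLt, smul_smul, Matrix.mulVec_smul, hc]

end CfsgLib.TwistSub.E6
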