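import Cfsg.Agent.TwistSub.E6Base

/-!
Overgroups of the points of `²E₆(q)` over the field with `q` elements meet the unipotent subgroup in
such points, unless they contain a further element at the highest short root.
-/

set_option autoImplicit false
set_option linter.unusedSectionVars false

namespace CfsgLib.TwistSub.E6

open Cfsg.Lie CfsgLib.Chevalley CfsgLib.TwistedLie CfsgLib.TwistedLie.E6 CfsgLib.ChevField
  CfsgLib.ChevSubfield

local notation "S" => sysE6

/-- Representatives of the orbits on the fundamental roots. -/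
def reps : List ℕ := [46, 39, 42, 56]

/-- The linear coefficient of the commutator with the fixed element of the orbit of `r`. -/
def cfs (r b c : ℕ) : ℤ := coef chevE6 r b c + if pE r = r then 0 else coef chevE6 (pE r) b c

theorem reps_facts : ∀ r ∈ reps, r < 72 ∧ 36 ≤ r ∧ sgE r = 1 ∧
    Sys.height sysE6 r = 1 := by decide +kernel

theorem height_facts : ∀ a < 72, 36 ≤ a → 1 ≤ Sys.height sysE6 a ∧ Sys.height sysE6 a < 12 ∧
    (Sys.height sysE6 a = 8 → a = 66 ∨ a = 68) ∧ (9 ≤ Sys.height sysE6 a → pE a = a) := by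
  decide +kernel

theorem short_top : Sys.height sysE6 66 = 8 ∧ Sys.height sysE6 68 = 8 ∧ pE 66 = 68 ∧ sgE 66 = 1 := by
  decide +kernel

/-- For the root `36 + i`: a fundamental element and a root seeing it alone. -/
def detTab : List (ℕ × ℕ) :=
  [(42, 38), (39, 40), (39, 41), (46, 47), (46, 48), (46, 49), (39, 43), (46, 50), (46, 51),
    (46, 52), (39, 47), (42, 48), (56, 49), (42, 52), (56, 61), (39, 53), (39, 54), (56, 54),
    (42, 55), (56, 66), (42, 57), (39, 58), (46, 61), (46, 62), (46, 63), (42, 62), (39, 64),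
    (39, 65), (42, 67), (42, 66), (0, 0), (56, 68), (0, 0), (39, 70), (46, 71), (0, 0)]

/-- The fundamental element seeing the root `a`. -/
def detR (a : ℕ) : ℕ := (detTab.getD (a - 36) (0, 0)).1

/-- The root through which `a` is seen. -/
def detC (a : ℕ) : ℕ := (detTab.getD (a - 36) (0, 0)).2

set_option synthInstance.maxSize 2000 in
set_option synthInstance.maxHeartbeats 100000 in
theorem detect : ∀ a < 72, 36 ≤ a → pE a ≠ a → Sys.height sysE6 a ≠ 8 →
    detR a ∈ reps ∧ detC a < 72 ∧ 36 ≤ detC a ∧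
      Sys.height sysE6 (detC a) = Sys.height sysE6 a + 1 ∧
      (cfs (detR a) a (detC a)).natAbs = 1 := by decide +kernel

set_option synthInstance.maxSize 2000 in
set_option synthInstance.maxHeartbeats 100000 in
theorem detect_alone : ∀ a < 72, ∀ b < 72, 36 ≤ a → pE a ≠ a → 36 ≤ b → b ≠ a →
    Sys.height sysE6 a ≠ 8 → Sys.height sysE6 b = Sys.height sysE6 a →
    cfs (detR a) b (detC a) = 0 := by decide +kernel

section generic

variable {D : ChevalleyDatum} (S' : Sys D) {F : Type*} [Field F]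

theorem defect_cut {h : ℤ} {r : ℕ} (hr : r < D.nroots) (hrp : D.nroots / 2 ≤ r) (s : F)
    {g : GL D.Idx F} (hg : g ∈ uSub D F (S'.cut h)) :
    g⁻¹ * ((S'.xG F r s)⁻¹ * g * S'.xG F r s) ∈ uSub D F (S'.cut (h + 1)) := by
  refine S'.conj_defect F (R := S'.cut h) hr hrp s (fun v hv x hx => S'.posUnipotent_conj_between F
    (fun u hu _ _ => hu) (fun u _ _ hu => le_of_lt hu) hv hx) (fun u hu h1 h2 _ c hc => ?_) hg
  obtain ⟨hi, hj, -⟩ := S'.commTerms_vec hr h2 hc
  show h + 1 ≤ S'.height c.1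
  rw [S'.height_commTerm hr h2 hc]
  have a1 := FoldData.height_pos (SE := S') hr hrp
  have a2 := FoldData.height_pos (SE := S') h2 h1
  have a3 : h ≤ S'.height u := hu
  nlinarith

end generic

variable {K : Type*} [Field K] [Fintype K] {q : ℕ}

local notation "G1" => chevE6.genSubgroup K (e6Words K q)

variable (hq : IsPrimePow q) (hK : Fintype.card K = q ^ 2)
include hq hK

theorem orb_one {r : ℕ} (hr : r ∈ reps) : orb hq hK r (1 : K) =
    if pE r = r then Sys.xG S K r 1 else Sys.xG S K r 1 * Sys.xG S K (pE r) 1 := by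
  rw [orb, (reps_facts r hr).2.2.1]
  simp

theorem comm_cut {r : ℕ} (hr : r ∈ reps) {h : ℤ} {g : GL chevE6.Idx K}
    (hg : g ∈ uSub chevE6 K (Sys.cut S h)) :
    g⁻¹ * ((orb hq hK r (1 : K))⁻¹ * g * orb hq hK r 1) ∈ uSub chevE6 K (Sys.cut S (h + 1)) := by
  obtain ⟨hr1, hr2, -, -⟩ := reps_facts r hr
  rw [orb_one hq hK hr]
  split_ifs
  · exact defect_cut S hr1 hr2 1 hg
  · obtain ⟨h1, -, -, h4⟩ := rho_facts r hr1
    have := mul_mem (defect_cut S h1 (h4 hr2) (1 : K) hg)
      (Sys.posUnipotent_conj_between S K (R := Sys.cut S (h + 1)) (fun u hu _ _ => hu)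
        (fun u _ _ hu => le_of_lt hu) (inv_mem (mem_U (h4 hr2) h1 (1 : K)))
        (defect_cut S hr1 hr2 (1 : K) hg))
    convert this using 1
    group

/-- The coordinate of the commutator with a fundamental element. -/
theorem lead_comm {r : ℕ} (hr : r ∈ reps) {h : ℤ} {c : ℕ} (hc : c < 72) (hcp : 36 ≤ c)
    (hh : Sys.height S c = h + 1) {g : GL chevE6.Idx K} (hg : g ∈ uSub chevE6 K (Sys.cut S h))
    {L : ℕ → K} (hL : ∀ a ∈ level S h, IsLead S a g (L a)) :
    IsLead S c (g⁻¹ * ((orb hq hK r (1 : K))⁻¹ * g * orb hq hK r 1))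
      (∑ a ∈ level S h, -(cfs r a c : K) * L a) := by
  obtain ⟨hr1, hr2, -, hr4⟩ := reps_facts r hr
  have h0 := lead_defect S hr1 hr2 hc hcp (by rw [hr4]; exact hh) (1 : K) hg hL
  rw [orb_one hq hK hr]
  by_cases hf : pE r = r
  · rw [if_pos hf]
    simpa [cfs, hf] using h0
  rw [if_neg hf]
  obtain ⟨h1, -, -, h4⟩ := rho_facts r hr1
  have h2 := lead_defect S h1 (h4 hr2) hc hcp (by rw [rho_height r hr1, hr4]; exact hh) (1 : K) hg hL
  have := lead_mul S hc hcp h2
    (lead_conj S hc hcp (inv_mem (mem_U (h4 hr2) h1 (1 : K))) h0)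
  convert this using 1
  · group
  · rw [← Finset.sum_add_distrib]
    refine Finset.sum_congr rfl fun a _ => ?_
    simp only [cfs, if_neg hf, Int.cast_add]
    ring

/-- A coordinate is fixed if the commutators with the fundamental elements are fixed. -/
theorem lead_of_comm {a : ℕ} (ha : a < 72) (hp : 36 ≤ a) (hne : Sys.height S a ≠ 8)
    {g : GL chevE6.Idx K} (hgG : g ∈ G1) (hg : g ∈ uSub chevE6 K (Sys.cut S (Sys.height S a)))
    {d : K} (hd : IsLead S a g d)
    (hw : ∀ r ∈ reps, ∃ u ∈ chevE6.posUnipotent K,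
      u * (g⁻¹ * ((orb hq hK r (1 : K))⁻¹ * g * orb hq hK r 1)) * u⁻¹ ∈ pts hq hK) :
    phi hq hK d = d := by
  classical
  by_cases hf : pE a = a
  · exact lead_fixed hq hK ha hp hf hgG hd
  obtain ⟨hr, hc, hcp, hh, hsgn⟩ := detect a ha hp hf hne
  have hlev : a ∈ level S (Sys.height S a) := (mem_level S).mpr ⟨ha, hp, rfl⟩
  have hex : ∀ b ∈ level S (Sys.height S a), ∃ e, IsLead S b g e := fun b hb => by
    obtain ⟨h1, h2, h3⟩ := (mem_level S).mp hb
    exact exists_lead S h1 h2 h3.symm hg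
  let L : ℕ → K := fun b => if h : ∃ e, IsLead S b g e then h.choose else 0
  have hL : ∀ b ∈ level S (Sys.height S a), IsLead S b g (L b) := fun b hb => by
    simp only [L, dif_pos (hex b hb)]
    exact (hex b hb).choose_spec
  have hLa : L a = d := lead_unique S ha hp (hL a hlev) hd
  have h1 := lead_comm hq hK hr hc hcp hh hg hL
  rw [Finset.sum_eq_single a, hLa] at h1
  · obtain ⟨u, hu, hwm⟩ := hw _ hr
    have h2 := lead_conj S hc hcp hu h1
    have h3 := lead_gmap S hc hcp (phi hq hK) h2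
    rw [((mem_pts hq hK).mp hwm).2] at h3
    have h4 := lead_unique S hc hcp h3 h2
    rcases Int.natAbs_eq (cfs (detR a) a (detC a)) with e | e <;> rw [hsgn] at e <;>
      simpa [e] using h4
  · intro b hb hba
    obtain ⟨b1, b2, b3⟩ := (mem_level S).mp hb
    rw [detect_alone a ha b b1 hp hf b2 hba hne b3]
    simp
  · exact fun h => absurd hlev h

theorem cut_twelve {h : ℤ} (hh : 12 ≤ h) {g : GL chevE6.Idx K}
    (hg : g ∈ uSub chevE6 K (Sys.cut S h)) : g = 1 := by
  rw [Sys.cut_top S K fun r h1 h2 => lt_of_lt_of_le (height_facts r h1 h2).2.1 hh,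
    Subgroup.mem_bot] at hg
  exact hg

/-- Fixed elements above all short roots are points. -/
theorem high_fixed {h : ℤ} (hh : 9 ≤ h) {g : GL chevE6.Idx K} (hgG : g ∈ G1)
    (hg : g ∈ uSub chevE6 K (Sys.cut S h)) : g ∈ pts hq hK := by
  suffices ∀ n : ℕ, ∀ h : ℤ, 9 ≤ h → 12 ≤ h + n → ∀ g : GL chevE6.Idx K, g ∈ G1 →
      g ∈ uSub chevE6 K (Sys.cut S h) → g ∈ pts hq hK from this 3 h hh (by omega) g hgG hg
  intro n
  induction n with
  | zero =>
    intro h _ hn g _ hg
    rw [cut_twelve hq hK (by omega) hg]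
    exact one_mem _
  | succ n ih =>
    intro h hh hn g hgG hg
    obtain ⟨m, hm, -, hm'⟩ := peel hq hK hgG hg fun a ha => by
      obtain ⟨h1, h2, h3⟩ := (mem_level S).mp ha
      obtain ⟨d, hd⟩ := exists_lead S h1 h2 h3.symm hg
      exact ⟨d, lead_fixed hq hK h1 h2 ((height_facts a h1 h2).2.2.2 (by omega)) hgG hd, hd⟩
    have := mul_mem hm (ih (h + 1) (by omega) (by omega) _
      (mul_mem (inv_mem (pts_le hq hK hm)) hgG) hm')
    rwa [mul_inv_cancel_left] at this

/-- Splitting off the element of the highest short roots. -/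
theorem split_eight {g : GL chevE6.Idx K} (hgG : g ∈ G1)
    (hg : g ∈ uSub chevE6 K (Sys.cut S 8)) :
    ∃ t : K, IsLead S 66 g t ∧ (orb hq hK 66 t)⁻¹ * g ∈ pts hq hK ∧
      g * (orb hq hK 66 t)⁻¹ ∈ pts hq hK := by
  obtain ⟨e1, e2, e3, e4⟩ := short_top
  have ha : 66 < chevE6.nroots := by decide
  have hap : chevE6.nroots / 2 ≤ 66 := by decide
  obtain ⟨t, ht⟩ := exists_lead S ha hap e1.symm hg
  have ho : orb hq hK 66 t ∈ G1 := orb_G1 hq hK ha hap fun h => absurd h (by rw [e3]; decide)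
  have hoC : orb hq hK 66 t ∈ uSub chevE6 K (Sys.cut S 8) := orb_mem_cut hq hK ha hap e1.ge t
  have key : ∀ b ∈ level S 8, ∃ e, IsLead S b g e ∧ IsLead S b (orb hq hK 66 t) e := fun b hb => by
    obtain ⟨b1, b2, b3⟩ := (mem_level S).mp hb
    have hl := lead_orb hq hK ha hap b1 b2 (e1.trans b3.symm) t
    rcases (height_facts b b1 b2).2.2.1 b3 with rfl | rfl
    · exact ⟨_, ht, by simpa using hl⟩
    · refine ⟨_, ?_, hl⟩
      have := lead_rho hq hK ha hap hgG ht
      rw [e3] at this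
      simpa [e3] using this
  refine ⟨t, ht, ?_, ?_⟩
  · refine high_fixed hq hK (h := 8 + 1) (by norm_num) (mul_mem (inv_mem ho) hgG)
      (cut_succ S (mul_mem (inv_mem hoC) hg) fun b hb => ?_)
    obtain ⟨b1, b2, -⟩ := (mem_level S).mp hb
    obtain ⟨e, h1, h2⟩ := key b hb
    have := lead_mul S b1 b2 (lead_inv S b1 b2 h2) h1
    rwa [neg_add_cancel] at this
  · refine high_fixed hq hK (h := 8 + 1) (by norm_num) (mul_mem hgG (inv_mem ho))
      (cut_succ S (mul_mem hg (inv_mem hoC)) fun b hb => ?_)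
    obtain ⟨b1, b2, -⟩ := (mem_level S).mp hb
    obtain ⟨e, h1, h2⟩ := key b hb
    have := lead_mul S b1 b2 h1 (lead_inv S b1 b2 h2)
    rwa [add_neg_cancel] at this

/-- Without a further element at the highest short root the unipotent part consists of points. -/
theorem uni_fixed {H : Subgroup (GL chevE6.Idx K)} (hM : pts hq hK ≤ H) (hHG : H ≤ G1)
    (hsmall : ∀ t, orb hq hK 66 t ∈ H → phi hq hK t = t) {g : GL chevE6.Idx K} (hgH : g ∈ H)
    (hgU : g ∈ chevE6.posUnipotent K) : g ∈ pts hq hK := by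
  rw [← Sys.cut_one S K] at hgU
  suffices ∀ n : ℕ, ∀ h : ℤ, 1 ≤ h → 12 ≤ h + n → ∀ g ∈ H,
      g ∈ uSub chevE6 K (Sys.cut S h) → g ∈ pts hq hK from this 11 1 le_rfl le_rfl g hgH hgU
  intro n
  induction n with
  | zero =>
    intro h _ hn g _ hg
    rw [cut_twelve hq hK (by omega) hg]
    exact one_mem _
  | succ n ih =>
    intro h hh hn g hgH hg
    have hgG := hHG hgH
    by_cases h8 : h = 8
    · subst h8
      obtain ⟨t, -, hrest, -⟩ := split_eight hq hK hgG hg
      have ho : orb hq hK 66 t ∈ H := by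
        have := mul_mem hgH (inv_mem (hM hrest))
        rwa [mul_inv_rev, inv_inv, mul_inv_cancel_left] at this
      have := mul_mem (orb_pts hq hK (a := 66) (by decide) (by decide) (hsmall t ho)) hrest
      rwa [mul_inv_cancel_left] at this
    obtain ⟨m, hm, -, hm'⟩ := peel hq hK hgG hg fun a ha => by
      obtain ⟨h1, h2, h3⟩ := (mem_level S).mp ha
      obtain ⟨d, hd⟩ := exists_lead S h1 h2 h3.symm hg
      refine ⟨d, lead_of_comm hq hK h1 h2 (by omega) hgG (h3.symm ▸ hg) hd fun r hr =>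
        ⟨1, one_mem _, ?_⟩, hd⟩
      rw [one_mul, inv_one, mul_one]
      have hoH : orb hq hK r (1 : K) ∈ H :=
        hM (orb_pts hq hK (reps_facts r hr).1 (reps_facts r hr).2.1 (map_one _))
      exact ih (h + 1) (by omega) (by omega) _
        (mul_mem (inv_mem hgH) (mul_mem (mul_mem (inv_mem hoH) hgH) hoH)) (comm_cut hq hK hr hg)
    have := mul_mem hm (ih (h + 1) (by omega) (by omega) _ (mul_mem (inv_mem (hM hm)) hgH) hm')
    rwa [mul_inv_cancel_left] at this

/-- An element conjugating the fundamental elements to points is a point times an element at the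
highest short root. -/
theorem conj_decomp {v : GL chevE6.Idx K} (hvG : v ∈ G1) (hvU : v ∈ chevE6.posUnipotent K)
    (hv : ∀ r ∈ reps, v * orb hq hK r 1 * v⁻¹ ∈ pts hq hK) :
    ∃ m ∈ pts hq hK, ∃ t : K, v = m * orb hq hK 66 t := by
  rw [← Sys.cut_one S K] at hvU
  suffices ∀ n : ℕ, ∀ h : ℤ, 1 ≤ h → h + n = 8 → ∀ v : GL chevE6.Idx K, v ∈ G1 →
      v ∈ uSub chevE6 K (Sys.cut S h) → (∀ r ∈ reps, v * orb hq hK r 1 * v⁻¹ ∈ pts hq hK) →
      ∃ m ∈ pts hq hK, ∃ t : K, v = m * orb hq hK 66 t from this 7 1 le_rfl rfl v hvG hvU hv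
  intro n
  induction n with
  | zero =>
    intro h _ hn v hvG hvC _
    obtain rfl : h = 8 := by omega
    obtain ⟨t, -, -, hr⟩ := split_eight hq hK hvG hvC
    exact ⟨_, hr, t, by group⟩
  | succ n ih =>
    intro h hh hn v hvG hvC hv
    obtain ⟨m, hm, -, hm'⟩ := peel hq hK hvG hvC fun a ha => by
      obtain ⟨h1, h2, h3⟩ := (mem_level S).mp ha
      obtain ⟨d, hd⟩ := exists_lead S h1 h2 h3.symm hvC
      refine ⟨d, lead_of_comm hq hK h1 h2 (by omega) hvG (h3.symm ▸ hvC) hd fun r hr =>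
        ⟨v, uSub_le_posUnipotent K _ hvC, ?_⟩, hd⟩
      have hoP := orb_pts hq hK (reps_facts r hr).1 (reps_facts r hr).2.1
        (map_one (phi hq hK))
      convert mul_mem (inv_mem hoP) (hv r hr) using 1
      group
    obtain ⟨m', hm'P, t, e⟩ := ih (h + 1) (by omega) (by omega) (m⁻¹ * v)
      (mul_mem (inv_mem (pts_le hq hK hm)) hvG) hm' fun r hr => by
      convert mul_mem (mul_mem (inv_mem hm) (hv r hr)) hm using 1
      group
    exact ⟨m * m', mul_mem hm hm'P, t, by rw [mul_assoc, ← e, mul_inv_cancel_left]⟩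

end CfsgLib.TwistSub.E6
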