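import Cfsg.Agent.ChevSubfield.Uni

/-!
Leading coefficients: the coordinate at a positive root `a` of an element of the unipotent subgroup
of the height cut at `a`, as a homomorphism; coefficients of commutators.
-/

set_option autoImplicit false
set_option linter.unusedSectionVars false

namespace CfsgLib.TwistSub

open Cfsg.Lie CfsgLib.Chevalley CfsgLib.ChevSubfield CfsgLib.ChevField

variable {D : ChevalleyDatum} (S : Sys D) {F : Type*} [Field F]

/-- The roots at least as high as `a`, other than `a`. -/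
def leadSet (a : ℕ) : Set ℕ := {s | S.height a ≤ S.height s ∧ s ≠ a}

/-- `d` is the coordinate of `g` at `a`. -/
def IsLead (a : ℕ) (g : GL D.Idx F) (d : F) : Prop :=
  (S.xG F a d)⁻¹ * g ∈ uSub D F (leadSet S a)

/-- The coefficient of `x_c` in the linear part of the commutator formula of `x_r` and `x_a`. -/
def coef (D : ChevalleyDatum) (r a c : ℕ) : ℤ :=
  if a = r then 0
  else ((D.commTerms r a).map fun e => if e.1 = c ∧ e.2.2 = (1, 1) then e.2.1 else 0).sum

/-- The positive roots of height `h`. -/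
def level (h : ℤ) : Finset ℕ :=
  (Finset.range D.nroots).filter fun a => D.nroots / 2 ≤ a ∧ S.height a = h

theorem mem_level {h : ℤ} {a : ℕ} :
    a ∈ level S h ↔ a < D.nroots ∧ D.nroots / 2 ≤ a ∧ S.height a = h := by
  simp [level]

theorem leadSet_between (a : ℕ) :
    (∀ s ∈ leadSet S a, D.nroots / 2 ≤ s → s < D.nroots → S.height a ≤ S.height s) ∧
      ∀ s, D.nroots / 2 ≤ s → s < D.nroots → S.height a < S.height s → s ∈ leadSet S a :=
  ⟨fun _ hs _ _ => hs.1, fun _ _ _ hs => ⟨le_of_lt hs, fun e => by subst e; omega⟩⟩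

theorem leadSet_closed (a : ℕ) : S.Closed (leadSet S a) :=
  FoldData.closed_cut (leadSet_between S a).1 (leadSet_between S a).2

theorem cut_le_leadSet {a : ℕ} {h : ℤ} (h1 : S.height a < h) :
    uSub D F (S.cut h) ≤ uSub D F (leadSet S a) :=
  uSub_mono fun s (hs : h ≤ S.height s) => ⟨by omega, fun e => by subst e; omega⟩

section pos

variable {a : ℕ} (ha : a < D.nroots) (hp : D.nroots / 2 ≤ a)
include ha hp

theorem leadSet_conj {v : GL D.Idx F} (hv : v ∈ D.posUnipotent F) {g : GL D.Idx F}
    (hg : g ∈ uSub D F (leadSet S a)) : v * g * v⁻¹ ∈ uSub D F (leadSet S a) :=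
  S.posUnipotent_conj_between F (leadSet_between S a).1 (leadSet_between S a).2 hv hg

theorem xG_conj_leadSet (d : F) {g : GL D.Idx F} (hg : g ∈ uSub D F (leadSet S a)) :
    S.xG F a d * g * (S.xG F a d)⁻¹ ∈ uSub D F (leadSet S a) :=
  S.xG_conj_between F (leadSet_between S a).1 (leadSet_between S a).2 ha hp d hg

theorem lead_unique {g : GL D.Idx F} {d d' : F} (h : IsLead S a g d) (h' : IsLead S a g d') :
    d = d' := by
  have h3 := mul_mem h (inv_mem h')
  rw [mul_inv_rev, inv_inv, ← mul_assoc, mul_inv_cancel_right, S.xG_inv, S.xG_add] at h3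
  have h4 := FoldData.eq_zero_of_mem_uSub (leadSet_closed S a) ha hp (fun hm => hm.2 rfl) h3
  linear_combination -h4

theorem lead_of_mem {g : GL D.Idx F} (hg : g ∈ uSub D F (leadSet S a)) : IsLead S a g 0 := by
  rwa [IsLead, S.xG_zero, inv_one, one_mul]

theorem lead_self (d : F) : IsLead S a (S.xG F a d) d := by
  rw [IsLead, inv_mul_cancel]
  exact one_mem _

theorem lead_xG {u : ℕ} (hu : u < D.nroots) (hup : D.nroots / 2 ≤ u)
    (hh : S.height a ≤ S.height u) (d : F) :
    IsLead S a (S.xG F u d) (if u = a then d else 0) := by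
  split_ifs with h
  · subst h; exact lead_self S ha hp d
  · exact lead_of_mem S ha hp (S.xG_mem_uSub F (P := leadSet S a) ⟨hh, h⟩ hup hu d)

theorem lead_mul {g g' : GL D.Idx F} {d d' : F} (h : IsLead S a g d) (h' : IsLead S a g' d') :
    IsLead S a (g * g') (d + d') := by
  have h3 := mul_mem (xG_conj_leadSet S ha hp (-d') h) h'
  rw [IsLead]
  convert h3 using 1
  rw [← S.xG_add, ← S.xG_inv]
  group

theorem lead_inv {g : GL D.Idx F} {d : F} (h : IsLead S a g d) : IsLead S a g⁻¹ (-d) := by
  have h3 := xG_conj_leadSet S ha hp d (inv_mem h)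
  rw [IsLead]
  convert h3 using 1
  rw [← S.xG_inv]
  group

theorem lead_prod {ι : Type*} (L : List ι) (x : ι → GL D.Idx F) (d : ι → F)
    (h : ∀ i ∈ L, IsLead S a (x i) (d i)) : IsLead S a (L.map x).prod (L.map d).sum := by
  induction L with
  | nil => simpa using lead_of_mem S ha hp (one_mem _)
  | cons i L ih =>
    rw [List.map_cons, List.prod_cons, List.map_cons, List.sum_cons]
    exact lead_mul S ha hp (h i List.mem_cons_self)
      (ih fun j hj => h j (List.mem_cons_of_mem _ hj))

theorem exists_lead {h : ℤ} (hh : h = S.height a) {g : GL D.Idx F}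
    (hg : g ∈ uSub D F (S.cut h)) : ∃ d, IsLead S a g d := by
  rw [uSub] at hg
  induction hg using Subgroup.closure_induction with
  | mem x hx =>
    obtain ⟨s, u, ⟨hs, hsp⟩, hx⟩ := hx
    obtain ⟨h1, h2⟩ := (S.pos_iff s).mp hsp
    rw [S.eq_xG F hx]
    exact ⟨_, lead_xG S ha hp h2 h1 (by rw [← hh]; exact hs) u⟩
  | one => exact ⟨0, lead_of_mem S ha hp (one_mem _)⟩
  | mul x y _ _ hx hy =>
    obtain ⟨d, hd⟩ := hx
    obtain ⟨d', hd'⟩ := hy
    exact ⟨_, lead_mul S ha hp hd hd'⟩
  | inv x _ hx =>
    obtain ⟨d, hd⟩ := hx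
    exact ⟨_, lead_inv S ha hp hd⟩

theorem lead_conj {v : GL D.Idx F} (hv : v ∈ D.posUnipotent F) {g : GL D.Idx F} {d : F}
    (h : IsLead S a g d) : IsLead S a (v * g * v⁻¹) d := by
  suffices ∀ g d, IsLead S a g d → IsLead S a (v * g * v⁻¹) d ∧ IsLead S a (v⁻¹ * g * v) d from
    (this g d h).1
  rw [S.posUnipotent_eq] at hv
  induction hv using Subgroup.closure_induction with
  | mem x hx =>
    obtain ⟨r, ⟨hr1, hr2⟩, t, rfl⟩ := hx
    have key : ∀ (t : F) g d, IsLead S a g d →
        IsLead S a ((S.xG F r t)⁻¹ * g * S.xG F r t) d := by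
      intro t g d hg
      have h1 : (S.xG F a d)⁻¹ * ((S.xG F r t)⁻¹ * S.xG F a d * S.xG F r t) ∈
          uSub D F (leadSet S a) := by
        refine S.conj_defect F (R := {a}) hr2 hr1 t (fun v hv g hg => leadSet_conj S ha hp hv hg)
          ?_ (S.xG_mem_uSub F (P := {a}) rfl hp ha d)
        rintro s rfl hs1 hs2 - c hc
        obtain ⟨hi, hj, -⟩ := S.commTerms_vec hr2 hs2 hc
        refine (leadSet_between S s).2 _ (S.commTerm_pos hr2 hr1 hs2 hs1 hc)
          (S.commTerms_lt hr2 hs2 hc) ?_
        rw [S.height_commTerm hr2 hs2 hc]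
        have a1 := FoldData.height_pos (SE := S) hr2 hr1
        have a2 := FoldData.height_pos (SE := S) hs2 hs1
        nlinarith
      have h2 : (S.xG F r t)⁻¹ * ((S.xG F a d)⁻¹ * g) * (S.xG F r t)⁻¹⁻¹ ∈
          uSub D F (leadSet S a) :=
        leadSet_conj S ha hp (inv_mem (by
          rw [← uSub_univ]; exact S.xG_mem_uSub F (Set.mem_univ _) hr1 hr2 t)) hg
      have h3 := mul_mem h1 h2
      rw [IsLead]
      convert h3 using 1
      group
    intro g d hg
    refine ⟨?_, key t g d hg⟩
    have := key (-t) g d hg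
    rwa [← S.xG_inv, inv_inv] at this
  | one =>
    intro g d hg
    simp only [one_mul, inv_one, mul_one]
    exact ⟨hg, hg⟩
  | mul x y _ _ hx hy =>
    intro g d hg
    refine ⟨?_, ?_⟩
    · have := (hx _ _ (hy g d hg).1).1
      convert this using 1; group
    · have := (hy _ _ (hx g d hg).2).2
      convert this using 1; group
  | inv x _ hx =>
    intro g d hg
    rw [inv_inv]
    exact ⟨(hx g d hg).2, (hx g d hg).1⟩

/-- Leading coordinates under a homomorphism permuting the root subgroups. -/
theorem lead_map {b : ℕ} (f : GL D.Idx F →* GL D.Idx F) {d d' : F}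
    (hself : f (S.xG F a d) = S.xG F b d')
    (hroots : ∀ s ∈ leadSet S a, D.nroots / 2 ≤ s → s < D.nroots → ∀ t,
      f (S.xG F s t) ∈ uSub D F (leadSet S b))
    {g : GL D.Idx F} (h : IsLead S a g d) : IsLead S b (f g) d' := by
  have hle : uSub D F (leadSet S a) ≤ (uSub D F (leadSet S b)).comap f :=
    S.uSub_le F fun s hs h1 h2 t => hroots s hs h1 h2 t
  have h1 := hle h
  rw [Subgroup.mem_comap, map_mul, map_inv, hself] at h1
  exact h1

theorem lead_gmap (φ : F →+* F) {g : GL D.Idx F} {d : F} (h : IsLead S a g d) :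
    IsLead S a (gmap D φ g) (φ d) := by
  refine lead_map S ha hp (gmap D φ) (gmap_xG S φ a d) (fun s hs h1 h2 t => ?_) h
  rw [gmap_xG S]
  exact S.xG_mem_uSub F hs h1 h2 _

end pos

/-- An element of a cut with vanishing coordinates at the lowest level is in the next cut. -/
theorem cut_succ {h : ℤ} {g : GL D.Idx F} (hg : g ∈ uSub D F (S.cut h))
    (h0 : ∀ a ∈ level S h, IsLead S a g 0) : g ∈ uSub D F (S.cut (h + 1)) := by
  classical
  obtain ⟨t, ht, rfl⟩ := S.exists_ordProd_half F (S.closed_cut' h) hg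
  refine S.ordProd_mem F t le_rfl fun r h1 h2 => ?_
  by_cases hlt : h < S.height r
  · exact Or.inl (show h + 1 ≤ S.height r by omega)
  refine Or.inr ?_
  by_contra hne
  have hr : h ≤ S.height r := (ht r hne).1
  have heq : S.height r = h := by omega
  have h3 := h0 r ((mem_level S).mpr ⟨h2, h1, heq⟩)
  have hlead : IsLead S r (S.ordProd F t (D.nroots / 2))
      (((List.range' (D.nroots / 2) (D.nroots - D.nroots / 2)).map fun u =>
        if u = r then t u else 0).sum) := by
    rw [Sys.ordProd, Sys.wG, List.map_map]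
    refine lead_prod S h2 h1 _ _ _ fun u hu => ?_
    rw [List.mem_range'_1] at hu
    show IsLead S r (S.xG F u (t u)) _
    by_cases htu : t u = 0
    · rw [htu, S.xG_zero, ite_self]
      exact lead_of_mem S h2 h1 (one_mem _)
    · exact lead_xG S h2 h1 (by omega) (by omega) (by have := (ht u htu).1; rw [heq]; exact this) _
  have hsum : ((List.range' (D.nroots / 2) (D.nroots - D.nroots / 2)).map fun u =>
      if u = r then t u else 0).sum = t r := by
    rw [← List.sum_toFinset _ List.nodup_range', Finset.sum_ite_eq']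
    rw [if_pos]
    rw [List.mem_toFinset, List.mem_range'_1]
    omega
  rw [hsum] at hlead
  exact hne (lead_unique S h2 h1 hlead h3)

/-- The coordinate of `[g, x_r(s)]`, linear in the coordinates of `g`. -/
theorem lead_defect {h : ℤ} {r c : ℕ} (hr : r < D.nroots) (hrp : D.nroots / 2 ≤ r)
    (hc : c < D.nroots) (hcp : D.nroots / 2 ≤ c) (hh : S.height c = h + S.height r) (s : F)
    {g : GL D.Idx F} (hg : g ∈ uSub D F (S.cut h)) {L : ℕ → F}
    (hL : ∀ a ∈ level S h, IsLead S a g (L a)) :
    IsLead S c (g⁻¹ * ((S.xG F r s)⁻¹ * g * S.xG F r s))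
      (∑ a ∈ level S h, -(coef D r a c : F) * s * L a) := by
  suffices ∃ L : ℕ → F, (∀ a ∈ level S h, IsLead S a g (L a)) ∧
      IsLead S c (g⁻¹ * ((S.xG F r s)⁻¹ * g * S.xG F r s))
        (∑ a ∈ level S h, -(coef D r a c : F) * s * L a) by
    obtain ⟨L', hL', h'⟩ := this
    have hsum : (∑ a ∈ level S h, -(coef D r a c : F) * s * L a) =
        ∑ a ∈ level S h, -(coef D r a c : F) * s * L' a :=
      Finset.sum_congr rfl fun a ha => by
        obtain ⟨h1, h2, -⟩ := (mem_level S).mp ha
        rw [lead_unique S h1 h2 (hL a ha) (hL' a ha)]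
    rw [hsum]
    exact h'
  clear hL L
  have hlev : ∀ a ∈ level S h, a < D.nroots ∧ D.nroots / 2 ≤ a := fun a ha =>
    ⟨((mem_level S).mp ha).1, ((mem_level S).mp ha).2.1⟩
  rw [uSub] at hg
  induction hg using Subgroup.closure_induction with
  | mem x hx =>
    obtain ⟨u, t, ⟨hu, hup⟩, hx⟩ := hx
    obtain ⟨hu1, hu2⟩ := (S.pos_iff u).mp hup
    replace hu : h ≤ S.height u := hu
    rw [S.eq_xG F hx]
    refine ⟨fun a => if u = a then t else 0, fun a ha => ?_, ?_⟩
    · obtain ⟨h1, h2, h3⟩ := (mem_level S).mp ha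
      exact lead_xG S h1 h2 hu2 hu1 (by omega) t
    have hsum : (∑ a ∈ level S h, -(coef D r a c : F) * s * (if u = a then t else 0)) =
        if u ∈ level S h then -(coef D r u c : F) * s * t else 0 := by
      simp only [mul_ite, mul_zero, Finset.sum_ite_eq]
    rw [hsum]
    by_cases hur : u = r
    · subst hur
      rw [show (S.xG F u t)⁻¹ * ((S.xG F u s)⁻¹ * S.xG F u t * S.xG F u s) = 1 by
        rw [S.xG_inv, S.xG_inv, S.xG_add, S.xG_add, S.xG_add,
          show -t + (-s + t + s) = 0 by ring, S.xG_zero]]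
      simp only [coef, if_true, Int.cast_zero, neg_zero, zero_mul, ite_self]
      exact lead_of_mem S hc hcp (one_mem _)
    have hneg : u ≠ D.neg r := fun e => by
      have := (S.neg_half r hr).mpr hrp
      omega
    rw [S.xG_comm F hr hu2 hur hneg, inv_mul_cancel_left, ChevalleyDatum.commWord, Sys.wG,
      List.map_map]
    have hterm : ∀ e ∈ D.commTerms r u, IsLead S c
        (S.xG F e.1 ((e.2.1 : F) * (-s) ^ e.2.2.1 * t ^ e.2.2.2))
        (if u ∈ level S h then
          -((if e.1 = c ∧ e.2.2 = (1, 1) then e.2.1 else 0 : ℤ) : F) * s * t else 0) := by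
      intro e he
      have he1 := S.commTerm_pos hr hrp hu2 hu1 he
      have he2 := S.commTerms_lt hr hu2 he
      obtain ⟨hi, hj, -⟩ := S.commTerms_vec hr hu2 he
      have hht := S.height_commTerm hr hu2 he
      have a1 := FoldData.height_pos (SE := S) hr hrp
      have a2 := FoldData.height_pos (SE := S) hu2 hu1
      have hge : S.height c ≤ S.height e.1 := by rw [hh, hht]; nlinarith
      have h3 := lead_xG S hc hcp he2 he1 hge ((e.2.1 : F) * (-s) ^ e.2.2.1 * t ^ e.2.2.2)
      by_cases hec : e.1 = c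
      · rw [if_pos hec] at h3
        have hboth : u ∈ level S h ∧ e.2.2 = (1, 1) := by
          rw [hec, hh] at hht
          have e1 : e.2.2.1 = 1 := by
            by_contra hne
            have : (2 : ℤ) ≤ e.2.2.1 := by omega
            nlinarith
          have e2 : e.2.2.2 = 1 := by
            by_contra hne
            have : (2 : ℤ) ≤ e.2.2.2 := by omega
            nlinarith
          refine ⟨(mem_level S).mpr ⟨hu2, hu1, ?_⟩, Prod.ext e1 e2⟩
          rw [e1, e2] at hht
          push_cast at hht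
          omega
        rw [if_pos hboth.1, if_pos ⟨hec, hboth.2⟩]
        convert h3 using 1
        simp only [Prod.ext_iff] at hboth
        rw [hboth.2.1, hboth.2.2]
        ring
      · rw [if_neg hec] at h3
        have : ¬(e.1 = c ∧ e.2.2 = (1, 1)) := fun h => hec h.1
        simpa [this] using h3
    have h4 := lead_prod S hc hcp (D.commTerms r u) _ _ hterm
    convert h4 using 1
    · rfl
    · by_cases hl : u ∈ level S h
      · simp only [if_pos hl, coef, if_neg hur]
        induction D.commTerms r u with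
        | nil => simp
        | cons e L ih =>
          simp only [List.map_cons, List.sum_cons, Int.cast_add]
          rw [← ih]
          ring
      · simp [if_neg hl]
  | one =>
    refine ⟨fun _ => 0, fun a ha => lead_of_mem S (hlev a ha).1 (hlev a ha).2 (one_mem _), ?_⟩
    simpa using lead_of_mem S hc hcp (one_mem _)
  | mul x y hx hy ihx ihy =>
    obtain ⟨L, hL, h1⟩ := ihx
    obtain ⟨L', hL', h2⟩ := ihy
    refine ⟨fun a => L a + L' a,
      fun a ha => lead_mul S (hlev a ha).1 (hlev a ha).2 (hL a ha) (hL' a ha), ?_⟩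
    have hyU : y ∈ D.posUnipotent F := uSub_le_posUnipotent F _ hy
    have h3 := lead_mul S hc hcp (lead_conj S hc hcp (inv_mem hyU) h1) h2
    convert h3 using 1
    · group
    · rw [← Finset.sum_add_distrib]
      exact Finset.sum_congr rfl fun a _ => by ring
  | inv x hx ihx =>
    obtain ⟨L, hL, h1⟩ := ihx
    refine ⟨fun a => -L a, fun a ha => lead_inv S (hlev a ha).1 (hlev a ha).2 (hL a ha), ?_⟩
    have hxU : x ∈ D.posUnipotent F := uSub_le_posUnipotent F _ hx
    have h3 := lead_conj S hc hcp hxU (lead_inv S hc hcp h1)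
    convert h3 using 1
    · group
    · rw [← Finset.sum_neg_distrib]
      exact Finset.sum_congr rfl fun a _ => by ring

end CfsgLib.TwistSub
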